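import Cfsg.Agent.SymEight40.Config
import Cfsg.Agent.SymEight40.General

/-!
Consequences of a configuration: the two types of elements of order three, the involutions
commuting with them.
-/

set_option autoImplicit false

open Equiv Subgroup

namespace CfsgLib.SymEight40

theorem comm_u5_table : ∀ b : Perm (Fin 5), b * u5 = u5 * b →
    ∃ j : Fin 3, b * c5 * b⁻¹ = c5 ^ j.1 := by decide +kernel

theorem cM_cube : ∀ p, cM p * cM p * cM p = 1 → ∃ i j : Fin 3, cM p = dM i j := by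
  decide +kernel

theorem dM_mem_one : ∀ i j : Fin 3, dM i j = dM 1 0 ^ i.1 * dM 0 1 ^ j.1 := by decide +kernel

namespace Config

variable {G : Type*} [Group G] (C : Config G)

/-- The standard element of order three with large centraliser. -/
abbrev z : G := C.ι (dM 1 0)
/-- Its image under the exchanging involution. -/
abbrev w : G := C.ι (dM 0 1)
/-- The mixed element. -/
abbrev y : G := C.ι (dM 1 1)
/-- The central involution of the normaliser of the Sylow subgroup. -/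
abbrev u : G := C.ι (1, u5)
/-- The involution inverting `z`. -/
abbrev s : G := C.ι (swap 0 1, 1)
/-- Its image. -/
abbrev r : G := C.n * C.s * C.n
/-- The standard Sylow subgroup. -/
abbrev D : Subgroup G := closure ({C.z, C.w} : Set G)
/-- The complement of `z` in its centraliser. -/
def kH : Perm (Fin 5) →* G := C.ι.comp (MonoidHom.inr _ _)
/-- The complement of `w` in its centraliser. -/
def fH : Perm (Fin 5) →* G := (MulAut.conj C.n).toMonoidHom.comp C.kH

theorem kH_apply (x : Perm (Fin 5)) : C.kH x = C.ι (1, x) := rfl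

theorem n_inv : C.n⁻¹ = C.n := inv_eq_of_mul_eq_one_right C.n_sq

theorem fH_apply (x : Perm (Fin 5)) : C.fH x = C.n * C.ι (1, x) * C.n := by
  change C.n * C.ι (1, x) * C.n⁻¹ = _
  rw [C.n_inv]

theorem kH_inj : Function.Injective C.kH := fun a b h =>
  congrArg Prod.snd (C.inj (show C.ι (1, a) = C.ι (1, b) from h))

theorem fH_inj : Function.Injective C.fH := fun _ _ h =>
  C.kH_inj ((MulAut.conj C.n).injective h)

theorem n_conj (x : G) : C.n * (C.n * x * C.n) * C.n = x := by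
  calc C.n * (C.n * x * C.n) * C.n = (C.n * C.n) * x * (C.n * C.n) := by group
    _ = x := by rw [C.n_sq, one_mul, mul_one]

theorem n_comm_u : Commute C.n C.u := by
  refine commute_of_conj_eq ?_
  rw [C.n_inv]; exact C.n_u

theorem u_sq : C.u * C.u = 1 := by
  rw [← map_mul, show ((1, u5) : M) * (1, u5) = 1 by decide +kernel, map_one]

theorem u_ne : C.u ≠ 1 := fun e =>
  absurd (C.inj (e.trans C.ι.map_one.symm)) (by decide +kernel)

theorem s_sq : C.s * C.s = 1 := by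
  rw [← map_mul, show ((swap 0 1, 1) : M) * (swap 0 1, 1) = 1 by decide +kernel, map_one]

theorem r_sq : C.r * C.r = 1 := by
  calc C.r * C.r = C.n * C.s * (C.n * C.n) * C.s * C.n := by group
    _ = 1 := by rw [C.n_sq, mul_one, mul_assoc C.n, C.s_sq, mul_one, C.n_sq]

theorem s_z : C.s * C.z * C.s⁻¹ = C.z⁻¹ := by
  rw [← map_inv, ← map_inv, ← map_mul, ← map_mul]
  exact congrArg C.ι (by decide +kernel)

theorem mem_D_iff (x : G) : x ∈ C.D ↔ InD C.ι x := inD_iff C.ι x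

theorem dM_mem_D (i j : Fin 3) : C.ι (dM i j) ∈ C.D := (C.mem_D_iff _).mpr ⟨i, j, rfl⟩

theorem D_cube {x : G} (hx : x ∈ C.D) : x * x * x = 1 := by
  obtain ⟨i, j, rfl⟩ := (C.mem_D_iff x).mp hx
  rw [← map_mul, ← map_mul, dM_mul, dM_mul, ← C.ι.map_one, ← dM_zero]
  congr 1
  have h : ∀ i : Fin 3, i + i + i = 0 := by decide
  rw [h, h]

theorem D_comm {x y : G} (hx : x ∈ C.D) (hy : y ∈ C.D) : Commute x y := by
  obtain ⟨i, j, rfl⟩ := (C.mem_D_iff x).mp hx
  obtain ⟨i', j', rfl⟩ := (C.mem_D_iff y).mp hy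
  refine (show Commute (dM i j) (dM i' j') from ?_).map C.ι
  change dM i j * dM i' j' = dM i' j' * dM i j
  rw [dM_mul, dM_mul, add_comm i, add_comm j]

theorem D_comm_u {x : G} (hx : x ∈ C.D) : Commute x C.u := by
  obtain ⟨i, j, rfl⟩ := (C.mem_D_iff x).mp hx
  refine (show Commute (dM i j) ((1, u5) : M) from ?_).map C.ι
  rw [dM_mem_one]
  have h1 : Commute (dM 1 0) ((1, u5) : M) := u5_comm.1.symm
  have h2 : Commute (dM 0 1) ((1, u5) : M) := u5_comm.2.symm
  exact (h1.pow_left _).mul_left (h2.pow_left _)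

theorem card_D : Nat.card C.D = 9 := by
  let f : Fin 3 × Fin 3 → C.D := fun p => ⟨C.ι (dM p.1 p.2), C.dM_mem_D _ _⟩
  have hf : Function.Bijective f := by
    refine ⟨fun p q h => ?_, fun x => ?_⟩
    · exact Prod.ext_iff.mpr (dM_inj _ _ _ _ (C.inj (congrArg (fun v : C.D => (v : G)) h)))
    · obtain ⟨i, j, e⟩ := (C.mem_D_iff x).mp x.2
      exact ⟨(i, j), Subtype.ext e.symm⟩
  rw [← Nat.card_eq_of_bijective f hf, Nat.card_prod, Nat.card_eq_fintype_card, Fintype.card_fin]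

/-- An element of the normaliser of `D` centralises `u`. -/
theorem norm_D_u {g : G} (hg : g ∈ normalizer (C.D : Set G)) : Commute g C.u := by
  refine commute_of_conj_eq ?_
  have hc : ∀ x ∈ C.D, Commute (g * C.u * g⁻¹) x := by
    intro x hx
    have hx' : g⁻¹ * x * g ∈ C.D := by
      refine (mem_normalizer_iff.mp hg _).mpr ?_
      simpa [mul_assoc] using hx
    have := commute_conj (C.D_comm_u hx').symm g
    simpa [mul_assoc] using this
  obtain ⟨p, hp⟩ := C.cent_D _ (hc _ (C.dM_mem_D 1 0)) (hc _ (C.dM_mem_D 0 1))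
  rw [hp]
  refine congrArg C.ι (cM_invol p (C.inj ?_) fun e => C.u_ne ?_)
  · rw [map_mul, ← hp, map_one]; exact conj_sq C.u_sq g
  · rw [e, map_one] at hp; exact conj_eq_one_iff.mp hp

/-- An element of the normaliser of `D` whose cube is one lies in `D`. -/
theorem cube_mem_D {g : G} (hg : g ∈ normalizer (C.D : Set G)) (h3 : g * g * g = 1) : g ∈ C.D := by
  have h1 : C.ψ (⟨g, hg⟩ ^ 3) = 1 := by
    rw [show (⟨g, hg⟩ : normalizer (C.D : Set G)) ^ 3 = 1 from
      Subtype.ext (by simpa [pow_succ] using h3), map_one]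
  rw [map_pow] at h1
  have h2 := (C.ψ_ker _).mp (dihedral_cube _ h1)
  rw [mem_centralizer_iff] at h2
  obtain ⟨p, rfl⟩ := C.cent_D g (h2 _ (C.dM_mem_D 1 0)).symm (h2 _ (C.dM_mem_D 0 1)).symm
  obtain ⟨i, j, e⟩ := cM_cube p (C.inj (by simpa using h3))
  rw [e]; exact C.dM_mem_D i j

theorem qM_mem (e f : Bool) :
    C.ι (qM e f) ∈ normalizer (C.D : Set G) ∧ Commute (C.ι (qM e f)) C.u := by
  have hq : ∀ x ∈ C.D, C.ι (qM e f) * x * (C.ι (qM e f))⁻¹ ∈ C.D := by
    intro x hx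
    obtain ⟨i, j, rfl⟩ := (C.mem_D_iff x).mp hx
    obtain ⟨i', j', h⟩ := qM_norm e f i j
    rw [← map_inv, ← map_mul, ← map_mul, h]; exact C.dM_mem_D i' j'
  have hinv : (C.ι (qM e f))⁻¹ = C.ι (qM e f) := by
    refine inv_of_sq ?_
    rw [← map_mul, qM_sq, map_one]
  refine ⟨mem_normalizer_iff.mpr fun x => ⟨hq x, fun hx => ?_⟩, (show Commute (qM e f) ((1, u5) : M) from qM_u e f).map C.ι⟩
  have := hq _ hx
  simpa [hinv, mul_assoc, ← mul_assoc (C.ι (qM e f)) (C.ι (qM e f)), ← map_mul, qM_sq] using this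

theorem n_mem : C.n ∈ normalizer (C.D : Set G) := by
  have hq : ∀ x ∈ C.D, C.n * x * C.n ∈ C.D := by
    intro x hx
    induction hx using Subgroup.closure_induction with
    | mem y hy =>
      rcases hy with rfl | rfl
      · rw [C.n_z]; exact C.dM_mem_D 0 1
      · rw [C.n_w]; exact C.dM_mem_D 1 0
    | one => rw [mul_one, C.n_sq]; exact one_mem _
    | mul a b _ _ ha hb =>
      have : C.n * (a * b) * C.n = (C.n * a * C.n) * (C.n * b * C.n) := by
        calc C.n * (a * b) * C.n = C.n * a * (C.n * C.n) * b * C.n := by rw [C.n_sq]; group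
          _ = _ := by group
      rw [this]; exact mul_mem ha hb
    | inv a _ ha =>
      have : C.n * a⁻¹ * C.n = (C.n * a * C.n)⁻¹ := by
        rw [mul_inv_rev, mul_inv_rev, C.n_inv]; group
      rw [this]; exact inv_mem ha
  rw [mem_normalizer_iff, C.n_inv]
  refine fun x => ⟨hq x, fun hx => ?_⟩
  rw [← C.n_conj x]; exact hq _ hx

/-- Every non-identity element of `D` is moved to `z` or `y` inside the normaliser of `D`. -/
theorem D_cases {x : G} (hx : x ∈ C.D) (h1 : x ≠ 1) :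
    ∃ q, q ∈ normalizer (C.D : Set G) ∧ (q * x * q⁻¹ = C.z ∨ q * x * q⁻¹ = C.y) := by
  obtain ⟨i, j, rfl⟩ := (C.mem_D_iff x).mp hx
  obtain rfl | hj := eq_or_ne j 0
  · have hi : i ≠ 0 := by rintro rfl; exact h1 (by rw [dM_zero, map_one])
    obtain ⟨e, f, h, -⟩ := qM_axis i hi
    exact ⟨_, (C.qM_mem e f).1, Or.inl (by rw [← map_inv, ← map_mul, ← map_mul, h])⟩
  obtain rfl | hi := eq_or_ne i 0
  · obtain ⟨e, f, h, -⟩ := qM_axis j hj
    refine ⟨C.ι (qM e f) * C.n, mul_mem (C.qM_mem e f).1 C.n_mem, Or.inl ?_⟩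
    have hn : C.n * C.ι (dM 0 j) * C.n⁻¹ = C.ι (dM j 0) := by
      rw [dM_snd_pow, map_pow, ← conj_pow, C.n_inv, C.n_w, ← map_pow, ← dM_fst_pow]
    calc C.ι (qM e f) * C.n * C.ι (dM 0 j) * (C.ι (qM e f) * C.n)⁻¹
        = C.ι (qM e f) * (C.n * C.ι (dM 0 j) * C.n⁻¹) * (C.ι (qM e f))⁻¹ := by group
      _ = _ := by rw [hn, ← map_inv, ← map_mul, ← map_mul, h]
  obtain ⟨e, f, h⟩ := qM_table i j hi hj
  exact ⟨_, (C.qM_mem e f).1, Or.inr (by rw [← map_inv, ← map_mul, ← map_mul, h])⟩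

theorem cent_z {g : G} (hg : Commute g C.z) : ∃ (i : Fin 3) (b : Perm (Fin 5)),
    g = C.ι (c3 ^ i.1, b) := by
  obtain ⟨⟨a, b⟩, rfl⟩ := C.norm_z g (Or.inl (conj_eq_of_commute hg))
  have h := congrArg Prod.fst (C.inj (show C.ι ((a, b) * dM 1 0) = C.ι (dM 1 0 * (a, b)) by
    rw [map_mul, map_mul]; exact hg.eq))
  obtain ⟨i, hi⟩ := three_cent a (by simpa [dM] using h)
  exact ⟨i, b, by rw [hi]⟩

theorem y_cent_norm {g : G} (hg : Commute g C.y) [Finite G] : g ∈ normalizer (C.D : Set G) := by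
  refine mem_normalizer_iff.mpr fun x => ?_
  have key : ∀ h, Commute h C.y → ∀ x ∈ C.D, h * x * h⁻¹ ∈ C.D := by
    intro h hh x hx
    obtain ⟨i, j, rfl⟩ := (C.mem_D_iff x).mp hx
    exact (C.mem_D_iff _).mpr (C.y_norm h hh i j)
  refine ⟨key g hg x, fun hx => ?_⟩
  have := key g⁻¹ hg.inv_left _ hx
  simpa [mul_assoc] using this

/-- The centraliser of `z` in the centraliser of `u` normalises `D`. -/
theorem cent_z_u [Finite G] {g : G} (h1 : Commute g C.z) (h2 : Commute g C.u) :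
    g ∈ normalizer (C.D : Set G) := by
  obtain ⟨i, b, rfl⟩ := C.cent_z h1
  have hb : b * u5 = u5 * b := by
    have := congrArg Prod.snd (C.inj (show C.ι ((c3 ^ i.1, b) * (1, u5)) =
      C.ι ((1, u5) * (c3 ^ i.1, b)) by rw [map_mul, map_mul]; exact h2.eq))
    simpa using this
  obtain ⟨j, hj⟩ := comm_u5_table b hb
  have hw : C.ι (c3 ^ i.1, b) * C.w * (C.ι (c3 ^ i.1, b))⁻¹ = C.ι (dM 0 j) := by
    rw [← map_inv, ← map_mul, ← map_mul]
    congr 1
    exact Prod.ext (by simp [dM]) (by simpa [dM] using hj)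
  have hle : C.D.map (MulAut.conj (C.ι (c3 ^ i.1, b))).toMonoidHom ≤ C.D := by
    rw [MonoidHom.map_closure, closure_le]
    rintro _ ⟨x, (rfl | rfl), rfl⟩
    · change _ * C.z * _ ∈ C.D
      rw [conj_eq_of_commute h1]; exact C.dM_mem_D 1 0
    · change _ * C.w * _ ∈ C.D
      rw [hw]; exact C.dM_mem_D 0 j
  have heq := Subgroup.eq_of_le_of_card_ge hle (le_of_eq (Nat.card_congr
    (Subgroup.equivMapOfInjective C.D _ (MulAut.conj _).injective).toEquiv))
  rw [mem_normalizer_iff]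
  refine fun x => ⟨fun hx => hle ⟨x, hx, rfl⟩, fun hx => ?_⟩
  rw [← heq] at hx
  obtain ⟨v, hv, hvx⟩ := hx
  rwa [← (MulAut.conj (C.ι (c3 ^ i.1, b))).injective hvx]

variable [Finite G]

include C in
theorem pow_le_two {Q : Subgroup G} {k : ℕ} (hQ : Nat.card Q = 3 ^ k) : k ≤ 2 := by
  by_contra h
  refine C.not27 (dvd_trans ?_ (Subgroup.card_subgroup_dvd_card Q))
  rw [hQ]
  exact (pow_dvd_pow 3 (by omega : 3 ≤ k) : 3 ^ 3 ∣ 3 ^ k)

/-- A subgroup of order nine is conjugate to `D`. -/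
theorem conj_D (Q : Subgroup G) (hQ : Nat.card Q = 9) :
    ∃ c : G, ∀ x, x ∈ C.D ↔ c * x * c⁻¹ ∈ Q := by
  have : Fact (Nat.Prime 3) := ⟨Nat.prime_three⟩
  have mk : ∀ R : Subgroup G, Nat.card R = 9 → ∃ P : Sylow 3 G, (P : Subgroup G) = R := by
    intro R hR
    obtain ⟨P, hP⟩ := (IsPGroup.of_card (n := 2) (by rw [hR]; rfl) : IsPGroup 3 R).exists_le_sylow
    refine ⟨P, (Subgroup.eq_of_le_of_card_ge hP ?_).symm⟩
    obtain ⟨k, hk⟩ := P.2.exists_card_eq
    rw [hR, hk]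
    exact (Nat.pow_le_pow_right (by norm_num) (C.pow_le_two hk) : 3 ^ k ≤ 3 ^ 2)
  obtain ⟨P, hP⟩ := mk Q hQ
  obtain ⟨P', hP'⟩ := mk C.D C.card_D
  obtain ⟨c, rfl⟩ := MulAction.exists_smul_eq G P' P
  refine ⟨c, fun x => ?_⟩
  rw [← hP, ← hP', Sylow.coe_subgroup_smul, Subgroup.mem_pointwise_smul_iff_inv_smul_mem]
  simp [MulAut.smul_def, MulAut.conj_apply, mul_assoc]

/-- Elements of order three in a subgroup: conjugate up to inversion, or a conjugate of `D`. -/
theorem conj_or_D (L : Subgroup G) {a b : G} (ha : a ∈ L) (hb : b ∈ L) (ha3 : a ^ 3 = 1)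
    (ha1 : a ≠ 1) (hb3 : b ^ 3 = 1) (hb1 : b ≠ 1) :
    (∃ c ∈ L, c * b * c⁻¹ = a ∨ c * b * c⁻¹ = a⁻¹) ∨
      ∃ e : G, (∀ x ∈ C.D, e * x * e⁻¹ ∈ L) ∧ ∃ c ∈ L, e⁻¹ * (c * b * c⁻¹) * e ∈ C.D := by
  have : Fact (Nat.Prime 3) := ⟨Nat.prime_three⟩
  have hpa : ∀ v : G, v ^ 3 = 1 → v ≠ 1 → (hv : v ∈ L) →
      ∃ P : Sylow 3 L, (⟨v, hv⟩ : L) ∈ (P : Subgroup L) := by
    intro v hv3 hv1 hv
    have ho : orderOf (⟨v, hv⟩ : L) = 3 := by
      rw [Subgroup.orderOf_mk]; exact orderOf_eq_prime hv3 hv1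
    obtain ⟨P, hP⟩ := (IsPGroup.of_card (n := 1) (by rw [Nat.card_zpowers, ho, pow_one]) :
      IsPGroup 3 (zpowers (⟨v, hv⟩ : L))).exists_le_sylow
    exact ⟨P, hP (mem_zpowers _)⟩
  obtain ⟨P, hPa⟩ := hpa a ha3 ha1 ha
  obtain ⟨P', hPb⟩ := hpa b hb3 hb1 hb
  obtain ⟨c, rfl⟩ := MulAction.exists_smul_eq L P' P
  have hcb : c * ⟨b, hb⟩ * c⁻¹ ∈ ((c • P' : Sylow 3 L) : Subgroup L) := by
    rw [Sylow.coe_subgroup_smul, Subgroup.mem_pointwise_smul_iff_inv_smul_mem]
    simpa [MulAut.smul_def, MulAut.conj_apply, mul_assoc] using hPb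
  set Q := ((c • P' : Sylow 3 L) : Subgroup L).map L.subtype with hQdef
  have hQa : a ∈ Q := ⟨_, hPa, rfl⟩
  have hQb : (c : G) * b * (c : G)⁻¹ ∈ Q := ⟨_, hcb, by simp⟩
  obtain ⟨k, hk⟩ := (c • P' : Sylow 3 L).2.exists_card_eq
  have hQk : Nat.card Q = 3 ^ k := by
    rw [hQdef, ← Nat.card_congr (equivMapOfInjective _ L.subtype Subtype.val_injective).toEquiv, hk]
  have hk2 := C.pow_le_two hQk
  by_cases hk3 : k = 2
  · right
    subst hk3
    obtain ⟨e, he⟩ := C.conj_D Q hQk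
    refine ⟨e, fun x hx => ?_, c, c.2, (he _).mpr ?_⟩
    · obtain ⟨v, -, hv⟩ := (he x).mp hx
      rw [← hv]; exact v.2
    · simpa [mul_assoc] using hQb
  · left
    refine ⟨c, c.2, ?_⟩
    have hQ : zpowers a = Q := by
      refine Subgroup.eq_of_le_of_card_ge (zpowers_le.mpr hQa) ?_
      rw [hQk, Nat.card_zpowers, orderOf_eq_prime ha3 ha1]
      exact (Nat.pow_le_pow_right (by norm_num) (by omega : k ≤ 1) : 3 ^ k ≤ 3 ^ 1)
    rw [← hQ] at hQb
    obtain ⟨i, hi⟩ := (Submonoid.mem_powers_iff _ _).1 ((mem_powers_iff_mem_zpowers).2 hQb)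
    rw [pow_eq_pow_mod i ha3] at hi
    have := Nat.mod_lt i (by norm_num : 3 > 0)
    interval_cases h : i % 3
    · rw [pow_zero] at hi; exact absurd (conj_eq_one_iff.1 hi.symm) hb1
    · left; rw [← hi, pow_one]
    · right
      rw [← hi, show a ^ 2 = a⁻¹ from eq_inv_of_mul_eq_one_left (by rw [← pow_succ, ha3])]

/-- An element of order three centralising `u` is conjugate there to `z` or to `y`. -/
theorem three_in_Cu {x : G} (hx : Commute x C.u) (h3 : x ^ 3 = 1) (h1 : x ≠ 1) :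
    ∃ c, Commute c C.u ∧ (c * x * c⁻¹ = C.z ∨ c * x * c⁻¹ = C.y) := by
  set L := centralizer ({C.u} : Set G)
  have hmem : ∀ g, g ∈ L ↔ Commute g C.u := fun g => mem_centralizer_singleton_iff
  have hz : C.z ∈ L := (hmem _).mpr (C.D_comm_u (C.dM_mem_D 1 0))
  have hz3 : C.z ^ 3 = 1 := by rw [pow_succ, pow_two]; exact C.D_cube (C.dM_mem_D 1 0)
  have hz1 : C.z ≠ 1 := fun e => absurd (C.inj (e.trans C.ι.map_one.symm)) (by decide +kernel)
  rcases C.conj_or_D L hz ((hmem x).mpr hx) hz3 hz1 h3 h1 with ⟨c, hc, h⟩ | ⟨e, he, c, hc, hd⟩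
  · have hc' := (hmem c).mp hc
    rcases h with h | h
    · exact ⟨c, hc', Or.inl h⟩
    · obtain ⟨q, hq, hq'⟩ := C.D_cases (inv_mem (C.dM_mem_D 1 0)) (inv_ne_one.mpr hz1)
      refine ⟨q * c, (C.norm_D_u hq).mul_left hc', ?_⟩
      rw [show q * c * x * (q * c)⁻¹ = q * (c * x * c⁻¹) * q⁻¹ by group, h]
      exact hq'
  · have hcu : ∀ d ∈ C.D, Commute (e⁻¹ * C.u * e) d := by
      intro d hdD
      have := commute_conj ((hmem _).mp (he d hdD)).symm e⁻¹
      simpa [mul_assoc] using this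
    obtain ⟨p, hp⟩ := C.cent_D _ (hcu _ (C.dM_mem_D 1 0)) (hcu _ (C.dM_mem_D 0 1))
    have heu : e⁻¹ * C.u * e = C.u := by
      rw [hp]
      refine congrArg C.ι (cM_invol p (C.inj ?_) fun e' => C.u_ne ?_)
      · rw [map_mul, ← hp, map_one]; simpa using conj_sq C.u_sq e⁻¹
      · rw [e', map_one] at hp
        calc C.u = e * (e⁻¹ * C.u * e) * e⁻¹ := by group
          _ = 1 := by rw [hp]; group
    have hd1 : e⁻¹ * (c * x * c⁻¹) * e ≠ 1 := fun e' => h1 (by
      calc x = c⁻¹ * e * (e⁻¹ * (c * x * c⁻¹) * e) * e⁻¹ * c := by group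
        _ = 1 := by rw [e']; group)
    obtain ⟨q, hq, hq'⟩ := C.D_cases hd hd1
    have heu' : Commute e⁻¹ C.u := commute_of_conj_eq (by rw [inv_inv]; exact heu)
    refine ⟨q * e⁻¹ * c, ((C.norm_D_u hq).mul_left heu').mul_left ((hmem c).mp hc), ?_⟩
    rw [show q * e⁻¹ * c * x * (q * e⁻¹ * c)⁻¹ = q * (e⁻¹ * (c * x * c⁻¹) * e) * q⁻¹ by group]
    exact hq'

/-- `z` and `y` are not conjugate. -/
theorem z_ne_y (g : G) : g * C.z * g⁻¹ ≠ C.y := by
  intro h
  have h120 : 120 ≤ Nat.card (centralizer ({C.z} : Set G)) := by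
    have hmem : ∀ x, C.kH x ∈ centralizer ({C.z} : Set G) := fun x => by
      rw [mem_centralizer_singleton_iff, C.kH_apply, ← map_mul, ← map_mul]
      exact congrArg C.ι (Prod.ext (by simp [dM]) (by simp [dM]))
    have h := Nat.card_le_card_of_injective
      (fun x : Perm (Fin 5) => (⟨C.kH x, hmem x⟩ : centralizer ({C.z} : Set G)))
      (fun x y h => C.kH_inj (congrArg (fun v : centralizer ({C.z} : Set G) => (v : G)) h))
    rwa [Nat.card_perm, Nat.card_fin] at h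
  have hc : Nat.card (centralizer ({C.y} : Set G)) = Nat.card (centralizer ({C.z} : Set G)) := by
    refine Nat.card_congr ((MulAut.conj g⁻¹).toEquiv.subtypeEquiv fun a => ?_)
    rw [mem_centralizer_singleton_iff, mem_centralizer_singleton_iff, ← h]
    change a * (g * C.z * g⁻¹) = g * C.z * g⁻¹ * a ↔ Commute ((MulAut.conj g⁻¹) a) C.z
    rw [← Commute.conj_iff g, MulAut.conj_apply, inv_inv,
      show g * (g⁻¹ * a * g) * g⁻¹ = a by group]
    exact Iff.rfl
  have h36 : Nat.card (centralizer ({C.y} : Set G)) = 36 := C.card_y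
  omega

/-- An involution conjugate to `u` commuting with `y` is `u`. -/
theorem conj_u_y (g : G) (h : Commute (g * C.u * g⁻¹) C.y) : g * C.u * g⁻¹ = C.u := by
  have hx : Commute (g⁻¹ * C.y * g) C.u := by
    have := commute_conj h.symm g⁻¹
    simpa [mul_assoc] using this
  have hy3 : C.y ^ 3 = 1 := by rw [pow_succ, pow_two]; exact C.D_cube (C.dM_mem_D 1 1)
  have hy1 : C.y ≠ 1 := fun e => absurd (C.inj (e.trans C.ι.map_one.symm)) (by decide +kernel)
  have h3 : (g⁻¹ * C.y * g) ^ 3 = 1 := by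
    rw [show g⁻¹ * C.y * g = g⁻¹ * C.y * g⁻¹⁻¹ by rw [inv_inv], conj_pow, hy3]; group
  have h1 : g⁻¹ * C.y * g ≠ 1 := fun e => hy1 (by
    calc C.y = g * (g⁻¹ * C.y * g) * g⁻¹ := by group
      _ = 1 := by rw [e]; group)
  obtain ⟨c, hc, hc' | hc'⟩ := C.three_in_Cu hx h3 h1
  · exfalso
    refine C.z_ne_y (g * c⁻¹) ?_
    rw [← hc']; group
  · have hh : Commute (c * g⁻¹) C.y := commute_of_conj_eq (by
      calc c * g⁻¹ * C.y * (c * g⁻¹)⁻¹ = c * (g⁻¹ * C.y * g) * c⁻¹ := by group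
        _ = _ := hc')
    have := hc.inv_left.mul_left (C.norm_D_u (C.y_cent_norm hh))
    rw [inv_mul_cancel_left] at this
    exact conj_eq_of_commute (by simpa using this.inv_left)

/-- An involution conjugate to `u` commuting with a conjugate of `y`. -/
theorem conj_u_y' (g a : G) (h : Commute (g * C.u * g⁻¹) (a * C.y * a⁻¹)) :
    g * C.u * g⁻¹ = a * C.u * a⁻¹ := by
  have h' := C.conj_u_y (a⁻¹ * g) (by
    have := commute_conj h a⁻¹
    simpa [mul_assoc] using this)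
  calc g * C.u * g⁻¹ = a * (a⁻¹ * g * C.u * (a⁻¹ * g)⁻¹) * a⁻¹ := by group
    _ = _ := by rw [h']

/-- The conjugates of `u` commuting with `z` are transpositions of the complement. -/
theorem conj_u_z (g : G) (h : Commute (g * C.u * g⁻¹) C.z) :
    ∃ b : Perm (Fin 5), g * C.u * g⁻¹ = C.kH (b * u5 * b⁻¹) := by
  have hx : Commute (g⁻¹ * C.z * g) C.u := by
    have := commute_conj h.symm g⁻¹
    simpa [mul_assoc] using this
  have hz3 : C.z ^ 3 = 1 := by rw [pow_succ, pow_two]; exact C.D_cube (C.dM_mem_D 1 0)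
  have hz1 : C.z ≠ 1 := fun e => absurd (C.inj (e.trans C.ι.map_one.symm)) (by decide +kernel)
  have h3 : (g⁻¹ * C.z * g) ^ 3 = 1 := by
    rw [show g⁻¹ * C.z * g = g⁻¹ * C.z * g⁻¹⁻¹ by rw [inv_inv], conj_pow, hz3]; group
  have h1 : g⁻¹ * C.z * g ≠ 1 := fun e => hz1 (by
    calc C.z = g * (g⁻¹ * C.z * g) * g⁻¹ := by group
      _ = 1 := by rw [e]; group)
  obtain ⟨c, hc, hc' | hc'⟩ := C.three_in_Cu hx h3 h1
  · have hh : Commute (c * g⁻¹) C.z := commute_of_conj_eq (by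
      calc c * g⁻¹ * C.z * (c * g⁻¹)⁻¹ = c * (g⁻¹ * C.z * g) * c⁻¹ := by group
        _ = _ := hc')
    obtain ⟨i, b, hb⟩ := C.cent_z hh.inv_left
    refine ⟨b, ?_⟩
    calc g * C.u * g⁻¹ = g * (c⁻¹ * C.u * c) * g⁻¹ := by
          rw [show c⁻¹ * C.u * c = C.u by
            calc c⁻¹ * C.u * c = c⁻¹ * (C.u * c) := by group
              _ = C.u := by rw [← hc.eq, inv_mul_cancel_left]]
      _ = (c * g⁻¹)⁻¹ * C.u * ((c * g⁻¹)⁻¹)⁻¹ := by group
      _ = _ := by
        rw [hb, ← map_inv, ← map_mul, ← map_mul, C.kH_apply]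
        congr 1
        exact Prod.ext (by simp) (by simp)
  · exfalso
    refine C.z_ne_y (c * g⁻¹) ?_
    rw [← hc']; group

theorem conj_u_ne_kH (g : G) {x : Perm (Fin 5)} (hx : Perm.sign x = 1) :
    g * C.u * g⁻¹ ≠ C.kH x := by
  intro h
  obtain ⟨b, hb⟩ := C.conj_u_z g (by
    rw [h, C.kH_apply]
    exact (show Commute ((1, x) : M) (dM 1 0) from Prod.ext (by simp [dM]) (by simp [dM])).map C.ι)
  rw [h] at hb
  rw [C.kH_inj hb, map_mul, map_mul, Perm.sign_inv, mul_comm (Perm.sign b), mul_assoc,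
    Int.units_mul_self, mul_one] at hx
  exact absurd hx (by decide +kernel)

/-- An involution commuting with `z` but not conjugate to `u` commutes with no conjugate of `y`. -/
theorem no_y {v : G} (hv : v * v = 1) (hv1 : v ≠ 1) (hvz : Commute v C.z)
    (hne : ∀ g, g * C.u * g⁻¹ ≠ v) (a : G) : ¬ Commute v (a * C.y * a⁻¹) := by
  intro hva
  set L := centralizer ({v} : Set G)
  have hmem : ∀ g, g ∈ L ↔ Commute g v := fun g => mem_centralizer_singleton_iff
  have hz3 : C.z ^ 3 = 1 := by rw [pow_succ, pow_two]; exact C.D_cube (C.dM_mem_D 1 0)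
  have hz1 : C.z ≠ 1 := fun e => absurd (C.inj (e.trans C.ι.map_one.symm)) (by decide +kernel)
  have hy3 : C.y ^ 3 = 1 := by rw [pow_succ, pow_two]; exact C.D_cube (C.dM_mem_D 1 1)
  have hy1 : C.y ≠ 1 := fun e => absurd (C.inj (e.trans C.ι.map_one.symm)) (by decide +kernel)
  rcases C.conj_or_D L ((hmem _).mpr hvz.symm) ((hmem _).mpr hva.symm) hz3 hz1
      (by rw [conj_pow, hy3]; group) (by rwa [ne_eq, conj_eq_one_iff]) with
    ⟨c, -, h | h⟩ | ⟨e, he, -⟩
  · refine C.z_ne_y (c * a)⁻¹ ?_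
    rw [← h]; group
  · refine C.z_ne_y ((c * a)⁻¹ * C.s) ?_
    calc (c * a)⁻¹ * C.s * C.z * ((c * a)⁻¹ * C.s)⁻¹
        = (c * a)⁻¹ * (C.s * C.z * C.s⁻¹) * (c * a) := by group
      _ = (c * a)⁻¹ * (c * (a * C.y * a⁻¹) * c⁻¹) * (c * a) := by rw [C.s_z, ← h]
      _ = C.y := by group
  · have hcu : ∀ d ∈ C.D, Commute (e⁻¹ * v * e) d := by
      intro d hdD
      have := commute_conj ((hmem _).mp (he d hdD)).symm e⁻¹
      simpa [mul_assoc] using this
    obtain ⟨p, hp⟩ := C.cent_D _ (hcu _ (C.dM_mem_D 1 0)) (hcu _ (C.dM_mem_D 0 1))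
    refine hne e ?_
    have : C.ι (cM p) = C.u := by
      refine congrArg C.ι (cM_invol p (C.inj ?_) fun e' => hv1 ?_)
      · rw [map_mul, ← hp, map_one]; simpa using conj_sq hv e⁻¹
      · rw [e', map_one] at hp
        calc v = e * (e⁻¹ * v * e) * e⁻¹ := by group
          _ = 1 := by rw [hp]; group
    rw [← this, ← hp]; group

end Config

end CfsgLib.SymEight40
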