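import Cfsg.Agent.SymEight40.Tables

/-!
Normalised data for the three-local recognition of the symmetric group of degree eight: an
embedding of `Perm (Fin 3) × Perm (Fin 5)` onto the normaliser of a subgroup of order three and an
involution exchanging the generators of the standard Sylow three-subgroup.
-/

set_option autoImplicit false

open Equiv Subgroup

namespace CfsgLib.SymEight40

variable {G : Type*} [Group G]

/-- Membership in the standard subgroup of order nine. -/
def InD (ι : M →* G) (x : G) : Prop := ∃ i j : Fin 3, x = ι (dM i j)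

theorem inD_iff (ι : M →* G) (x : G) :
    x ∈ closure ({ι (dM 1 0), ι (dM 0 1)} : Set G) ↔ InD ι x := by
  constructor
  · intro hx
    induction hx using Subgroup.closure_induction with
    | mem y hy =>
      rcases hy with rfl | rfl
      exacts [⟨1, 0, rfl⟩, ⟨0, 1, rfl⟩]
    | one => exact ⟨0, 0, by rw [dM_zero, map_one]⟩
    | mul y y' _ _ h h' =>
      obtain ⟨i, j, rfl⟩ := h
      obtain ⟨i', j', rfl⟩ := h'
      exact ⟨i + i', j + j', by rw [← map_mul, dM_mul]⟩
    | inv y _ h =>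
      obtain ⟨i, j, rfl⟩ := h
      exact ⟨-i, -j, by rw [← map_inv, dM_inv]⟩
  · rintro ⟨i, j, rfl⟩
    have hd : dM i j = dM 1 0 ^ i.1 * dM 0 1 ^ j.1 := by revert i j; decide +kernel
    rw [hd, map_mul, map_pow, map_pow]
    exact mul_mem (pow_mem (subset_closure (by simp)) _) (pow_mem (subset_closure (by simp)) _)

/-- The normalised configuration. -/
structure Config (G : Type*) [Group G] where
  ι : M →* G
  inj : Function.Injective ι
  norm_z : ∀ g, g * ι (dM 1 0) * g⁻¹ = ι (dM 1 0) ∨ g * ι (dM 1 0) * g⁻¹ = ι (dM 2 0) →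
    g ∈ ι.range
  n : G
  n_sq : n * n = 1
  n_z : n * ι (dM 1 0) * n = ι (dM 0 1)
  n_w : n * ι (dM 0 1) * n = ι (dM 1 0)
  n_u : n * ι (1, u5) * n = ι (1, u5)
  n_s : n * ι (swap 0 1, 1) * n = ι (1, p5) ∨ n * ι (swap 0 1, 1) * n = ι (1, p5 * u5)
  cent_D : ∀ g, Commute g (ι (dM 1 0)) → Commute g (ι (dM 0 1)) → ∃ p, g = ι (cM p)
  card_y : Nat.card (centralizer ({ι (dM 1 1)} : Set G)) = 36
  y_norm : ∀ g, Commute g (ι (dM 1 1)) → ∀ i j, InD ι (g * ι (dM i j) * g⁻¹)
  not27 : ¬ 27 ∣ Nat.card G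
  ψ : normalizer (closure ({ι (dM 1 0), ι (dM 0 1)} : Set G) : Set G) →* DihedralGroup 4
  ψ_surj : Function.Surjective ψ
  ψ_ker : ∀ g, ψ g = 1 ↔
    (g : G) ∈ centralizer (closure ({ι (dM 1 0), ι (dM 0 1)} : Set G) : Set G)

end CfsgLib.SymEight40
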