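import Mathlib

/-!
Finite facts about the symmetric group of degree eight: classes and centralisers of involutions.
-/

set_option autoImplicit false
set_option maxRecDepth 20000

open Equiv Subgroup

namespace CfsgLib.SymEight40

/-- Representatives of the four classes of involutions. -/
def R8 : Fin 4 → Perm (Fin 8)
  | 0 => swap 3 4
  | 1 => swap 3 4 * swap 6 7
  | 2 => swap 0 5 * swap 1 7 * swap 2 6
  | _ => swap 3 4 * (swap 0 5 * swap 1 7 * swap 2 6)

/-- A product of two three-cycles. -/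
def A8 : Perm (Fin 8) := swap 0 1 * swap 1 2 * (swap 6 7 * swap 5 6)

theorem R8_facts : (∀ j, R8 j * R8 j = 1 ∧ R8 j ≠ 1) ∧
    ∀ j : Fin 4, (R8 j).support.card = 2 * (j.1 + 1) := by decide +kernel

theorem invol_cycleType {x : Perm (Fin 8)} (h : x * x = 1) (h1 : x ≠ 1) :
    ∃ j : Fin 4, x.cycleType = Multiset.replicate (j.1 + 1) 2 ∧ x.support.card = 2 * (j.1 + 1) := by
  have : Fact (Nat.Prime 2) := ⟨Nat.prime_two⟩
  have ho : orderOf x = 2 := orderOf_eq_prime (by rw [pow_two, h]) h1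
  obtain ⟨n, hn⟩ := Equiv.Perm.cycleType_prime_order (σ := x) (by rw [ho]; exact Nat.prime_two)
  rw [ho] at hn
  have hs := x.sum_cycleType
  rw [hn, Multiset.sum_replicate, smul_eq_mul] at hs
  have hle : x.support.card ≤ 8 := by simpa using Finset.card_le_univ x.support
  exact ⟨⟨n, by omega⟩, hn, by change _ = 2 * (n + 1); omega⟩

/-- An involution is conjugate to the representative with the same number of moved points. -/
theorem isConj_R8 {x : Perm (Fin 8)} (h : x * x = 1) (h1 : x ≠ 1) (j : Fin 4)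
    (hj : x.support.card = 2 * (j.1 + 1)) : IsConj (R8 j) x := by
  obtain ⟨i, hi, hic⟩ := invol_cycleType h h1
  obtain ⟨k, hk, hkc⟩ := invol_cycleType (R8_facts.1 j).1 (R8_facts.1 j).2
  have e1 : i = j := Fin.ext (by omega)
  have e2 : k = j := Fin.ext (by have := R8_facts.2 j; omega)
  rw [Equiv.Perm.isConj_iff_cycleType_eq, hi, hk, e1, e2]

theorem invol_cases {x : Perm (Fin 8)} (h : x * x = 1) (h1 : x ≠ 1) :
    ∃ j : Fin 4, IsConj (R8 j) x :=
  let ⟨j, _, hj⟩ := invol_cycleType h h1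
  ⟨j, isConj_R8 h h1 j hj⟩

theorem card_isConj_support {x : Perm (Fin 8)} {j : Fin 4} (h : IsConj (R8 j) x) :
    x.support.card = 2 * (j.1 + 1) := by
  rw [← R8_facts.2 j, ← Equiv.Perm.sum_cycleType, ← Equiv.Perm.sum_cycleType,
    Equiv.Perm.isConj_iff_cycleType_eq.mp h]

theorem swap_of_isConj {x : Perm (Fin 8)} (h : IsConj (R8 0) x) :
    ∃ a b : Fin 8, a ≠ b ∧ x = swap a b := by
  obtain ⟨a, b, hab, he⟩ := Equiv.Perm.card_support_eq_two.mp (card_isConj_support h)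
  exact ⟨a, b, hab, he⟩

theorem card_centralizer_R8 (j : Fin 4) :
    Nat.card (centralizer ({R8 j} : Set (Perm (Fin 8)))) =
      (8 - 2 * (j.1 + 1)).factorial * 2 ^ (j.1 + 1) * (j.1 + 1).factorial := by
  obtain ⟨k, hk, hkc⟩ := invol_cycleType (R8_facts.1 j).1 (R8_facts.1 j).2
  have e2 : k = j := Fin.ext (by have := R8_facts.2 j; omega)
  rw [Equiv.Perm.nat_card_centralizer, hk, e2, Multiset.sum_replicate, Multiset.prod_replicate,
    Multiset.toFinset_replicate, if_neg (by omega), Finset.prod_singleton,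
    Multiset.count_replicate_self, Fintype.card_fin, smul_eq_mul, mul_comm (j.1 + 1) 2]

theorem pair_table : ∀ a b c d : Fin 8, a ≠ b → swap a b * R8 1 = swap c d →
    swap a b = R8 0 ∨ swap a b = swap 6 7 := by
  decide +kernel

theorem triple_table : ∀ a b : Fin 8, a ≠ b → swap a b * R8 2 = R8 2 * swap a b →
    swap a b = R8 0 ∨ (swap a b * R8 2).support.card = 4 := by
  decide +kernel

theorem swap_table : ∀ a b : Fin 8, swap a b * R8 0 * (swap a b)⁻¹ ≠ swap 6 7 := by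
  decide +kernel

theorem R8_misc : (swap 3 6 * swap 4 7) * R8 0 * (swap 3 6 * swap 4 7)⁻¹ = swap (6 : Fin 8) 7 ∧
    R8 0 * R8 1 = swap 6 7 ∧ R8 1 * R8 0 = swap 6 7 ∧ R8 0 * R8 2 = R8 3 ∧ R8 2 * R8 0 = R8 3 ∧
    R8 0 * R8 2 = R8 2 * R8 0 ∧ R8 0 * R8 1 = R8 1 * R8 0 ∧
    A8 * R8 2 = R8 2 * A8 ∧ A8 * R8 3 = R8 3 * A8 := by
  decide +kernel

/-- An odd order subgroup normalised by a centraliser of order `3 * 2 ^ k` is trivial. -/
theorem odd_normal_trivial {P : Type*} [Group P] [Finite P] (L : Subgroup P) (k : ℕ)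
    (hL : Nat.card L = 3 * 2 ^ k) (A c : P) (hA : A ∈ L) (hA3 : A * A * A = 1) (hA1 : A ≠ 1)
    (hc : c ∈ L) (hcA : c * A * c⁻¹ ≠ 1 ∧ c * A * c⁻¹ ≠ A ∧ c * A * c⁻¹ ≠ A * A)
    (X : Subgroup P) (hX : X ≤ L) (hodd : Odd (Nat.card X))
    (hn : ∀ g ∈ L, ∀ x ∈ X, g * x * g⁻¹ ∈ X) : X = ⊥ := by
  by_contra hne
  have hXL : Nat.card X ∣ 3 * 2 ^ k := hL ▸ Subgroup.card_dvd_of_le hX
  have h3 : Nat.card X ∣ 3 :=
    ((Nat.coprime_two_right.mpr hodd).pow_right k).dvd_of_dvd_mul_right hXL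
  have hX3 : Nat.card X = 3 := by
    rcases (Nat.dvd_prime Nat.prime_three).mp h3 with h | h
    · exact absurd (Subgroup.card_eq_one.mp h) hne
    · exact h
  haveI : (X.subgroupOf L).Normal := ⟨fun x hx g => by
    rw [mem_subgroupOf] at hx ⊢
    exact hn g g.2 x hx⟩
  have hidx : (X.subgroupOf L).index = 2 ^ k := by
    have h := (X.subgroupOf L).card_mul_index
    rw [Nat.card_congr (Subgroup.subgroupOfEquivOfLe hX).toEquiv, hX3, hL] at h
    omega
  have hAX : A ∈ X := by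
    have h1 := Subgroup.pow_index_mem (X.subgroupOf L) ⟨A, hA⟩
    rw [hidx, mem_subgroupOf, Subgroup.coe_pow] at h1
    change A ^ 2 ^ k ∈ X at h1
    have hA3' : A ^ 3 = 1 := by rw [pow_succ, pow_two, hA3]
    have hm : 2 ^ k % 3 = 1 ∨ 2 ^ k % 3 = 2 := by
      have : ¬ 3 ∣ 2 ^ k := fun h => by
        have := Nat.Prime.dvd_of_dvd_pow Nat.prime_three h
        omega
      omega
    rw [pow_eq_pow_mod _ hA3'] at h1
    rcases hm with h | h <;> rw [h] at h1
    · simpa using h1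
    · have := pow_mem h1 2
      rwa [← pow_mul, pow_eq_pow_mod _ hA3', show 2 * 2 % 3 = 1 by norm_num, pow_one] at this
  have hz : zpowers A = X := by
    refine Subgroup.eq_of_le_of_card_ge (zpowers_le.mpr hAX) ?_
    have : Fact (Nat.Prime 3) := ⟨Nat.prime_three⟩
    rw [hX3, Nat.card_zpowers, orderOf_eq_prime (by rw [pow_succ, pow_two, hA3]) hA1]
  have hmem := hn c hc A hAX
  rw [← hz] at hmem
  obtain ⟨i, hi⟩ := (Submonoid.mem_powers_iff _ _).1 ((mem_powers_iff_mem_zpowers).2 hmem)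
  rw [pow_eq_pow_mod i (show A ^ 3 = 1 by rw [pow_succ, pow_two, hA3])] at hi
  have := Nat.mod_lt i (by norm_num : 3 > 0)
  interval_cases h : i % 3
  · exact hcA.1 (by rw [← hi, pow_zero])
  · exact hcA.2.1 (by rw [← hi, pow_one])
  · exact hcA.2.2 (by rw [← hi, pow_two])

theorem A8_facts : (∀ x ∈ [(swap 0 1 * swap 1 2, R8 1, swap 2 5), (A8, R8 2, swap 0 5)],
      (x : Perm (Fin 8) × Perm (Fin 8) × Perm (Fin 8)).1 * x.2.1 = x.2.1 * x.1 ∧
      x.2.2 * x.2.1 = x.2.1 * x.2.2 ∧ x.1 * x.1 * x.1 = 1 ∧ x.1 ≠ 1 ∧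
      x.2.2 * x.1 * x.2.2⁻¹ ≠ 1 ∧ x.2.2 * x.1 * x.2.2⁻¹ ≠ x.1 ∧ x.2.2 * x.1 * x.2.2⁻¹ ≠ x.1 * x.1) := by
  decide +kernel

end CfsgLib.SymEight40
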