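import Cfsg.Agent.SymEight40.Config

/-!
From the three-local hypotheses to a normalised configuration.
-/

set_option autoImplicit false

open Equiv Subgroup

namespace CfsgLib.SymEight40

variable {G : Type*} [Group G] [Finite G]

local notation "⟪" ι "⟫" => closure ({ι (dM 1 0), ι (dM 0 1)} : Set _)

theorem card_centralizer_conj (g x : G) :
    Nat.card (centralizer ({g * x * g⁻¹} : Set G)) = Nat.card (centralizer ({x} : Set G)) := by
  refine Nat.card_congr ((MulAut.conj g⁻¹).toEquiv.subtypeEquiv fun a => ?_)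
  rw [mem_centralizer_singleton_iff, mem_centralizer_singleton_iff]
  change a * (g * x * g⁻¹) = g * x * g⁻¹ * a ↔ Commute ((MulAut.conj g⁻¹) a) x
  rw [← Commute.conj_iff g, MulAut.conj_apply, inv_inv,
    show g * (g⁻¹ * a * g) * g⁻¹ = a by group]
  exact Iff.rfl

/-- A configuration before the normalisation of the exchanging element. -/
theorem exists_config_of (ι : M →* G) (inj : Function.Injective ι)
    (norm_z : ∀ g, g * ι (dM 1 0) * g⁻¹ = ι (dM 1 0) ∨ g * ι (dM 1 0) * g⁻¹ = ι (dM 2 0) →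
      g ∈ ι.range)
    (not27 : ¬ 27 ∣ Nat.card G)
    (cent_D : ∀ g, Commute g (ι (dM 1 0)) → Commute g (ι (dM 0 1)) → ∃ p, g = ι (cM p))
    (ψ : normalizer (closure ({ι (dM 1 0), ι (dM 0 1)} : Set G) : Set G) →* DihedralGroup 4)
    (ψ_surj : Function.Surjective ψ)
    (ψ_ker : ∀ g, ψ g = 1 ↔
      (g : G) ∈ centralizer (closure ({ι (dM 1 0), ι (dM 0 1)} : Set G) : Set G))
    (a b : Fin 3) (hycard : Nat.card (centralizer ({ι (dM a b)} : Set G)) = 36)
    (hyn : ∀ g, Commute g (ι (dM a b)) → ∀ i j, InD ι (g * ι (dM i j) * g⁻¹))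
    (hysq : ∀ g, Commute g (ι (dM a b)) → InD ι (g * g)) : Nonempty (Config G) := by
  classical
  have hinD : ∀ i j, ι (dM i j) ∈ ⟪ι⟫ := fun i j => (inD_iff ι _).mpr ⟨i, j, rfl⟩
  have hbig : ∀ j : Fin 3, 120 ≤ Nat.card (centralizer ({ι (dM j 0)} : Set G)) := by
    intro j
    have hmem : ∀ x : Perm (Fin 5), ι (1, x) ∈ centralizer ({ι (dM j 0)} : Set G) := fun x => by
      rw [mem_centralizer_singleton_iff, ← map_mul, ← map_mul]
      exact congrArg ι (Prod.ext (by simp [dM]) (by simp [dM]))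
    have h := Nat.card_le_card_of_injective
      (fun x : Perm (Fin 5) => (⟨ι (1, x), hmem x⟩ : centralizer ({ι (dM j 0)} : Set G)))
      (fun x y h => congrArg Prod.snd (inj (congrArg Subtype.val h)))
    rwa [Nat.card_perm, Nat.card_fin] at h
  have hq : ∀ e f i j i' j', qM e f * dM i j * (qM e f)⁻¹ = dM i' j' →
      ι (qM e f) * ι (dM i j) * (ι (qM e f))⁻¹ = ι (dM i' j') := fun e f i j i' j' h => by
    rw [← map_inv, ← map_mul, ← map_mul, h]
  have hcardq : ∀ e f i j i' j', qM e f * dM i j * (qM e f)⁻¹ = dM i' j' →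
      Nat.card (centralizer ({ι (dM i' j')} : Set G)) =
        Nat.card (centralizer ({ι (dM i j)} : Set G)) := fun e f i j i' j' h => by
    rw [← hq e f i j i' j' h, card_centralizer_conj]
  have hab : ¬ b = 0 := fun h => by
    have := hbig a
    rw [← h, hycard] at this
    omega
  -- membership in the normaliser
  have hNmem : ∀ g, (∀ i j, InD ι (g * ι (dM i j) * g⁻¹)) → g ∈ normalizer (⟪ι⟫ : Set G) := by
    intro g hg
    have hle : ⟪ι⟫.map (MulAut.conj g).toMonoidHom ≤ ⟪ι⟫ := by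
      rintro _ ⟨x, hx, rfl⟩
      obtain ⟨i, j, rfl⟩ := (inD_iff ι x).mp hx
      exact (inD_iff ι _).mpr (hg i j)
    have heq : ⟪ι⟫.map (MulAut.conj g).toMonoidHom = ⟪ι⟫ :=
      Subgroup.eq_of_le_of_card_ge hle (le_of_eq (Nat.card_congr
        (Subgroup.equivMapOfInjective ⟪ι⟫ _ (MulAut.conj g).injective).toEquiv))
    rw [mem_normalizer_iff]
    refine fun x => ⟨fun hx => hle ⟨x, hx, rfl⟩, fun hx => ?_⟩
    rw [← heq] at hx
    obtain ⟨y, hy, hyx⟩ := hx
    rwa [← (MulAut.conj g).injective hyx]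
  have hNconj : ∀ g ∈ normalizer (⟪ι⟫ : Set G), ∀ i j, InD ι (g * ι (dM i j) * g⁻¹) := fun g hg i j =>
    (inD_iff ι _).mp ((mem_normalizer_iff.mp hg _).mp (hinD i j))
  have hcent : ∀ g, Commute g (ι (dM 1 0)) → Commute g (ι (dM 0 1)) →
      g ∈ centralizer (⟪ι⟫ : Set G) := by
    intro g h1 h2
    rw [centralizer_closure, mem_centralizer_iff]
    rintro x (rfl | rfl)
    exacts [h1.eq.symm, h2.eq.symm]
  -- some element of the normaliser moves the first line
  obtain ⟨g, i, j, hj, hg, hgz⟩ : ∃ g i j, j ≠ 0 ∧ g ∈ normalizer (⟪ι⟫ : Set G) ∧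
      g * ι (dM 1 0) * g⁻¹ = ι (dM i j) := by
    by_contra hall
    push Not at hall
    obtain ⟨x, hx⟩ := dihedral_sq
    obtain ⟨⟨g, hg⟩, rfl⟩ := ψ_surj x
    apply hx
    rw [← map_mul, ψ_ker]
    obtain ⟨i, j, hij⟩ := hNconj g hg 1 0
    obtain rfl : j = 0 := by
      by_contra hj
      exact hall g i j hj hg hij
    obtain rfl | hi := eq_or_ne i 0
    · rw [dM_zero, map_one, conj_eq_one_iff] at hij
      exact absurd (inj (hij.trans ι.map_one.symm)) (by decide +kernel)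
    have hi' : i = 1 ∨ i = 2 := fin3_cases i hi
    obtain ⟨⟨c, d⟩, hcd⟩ := norm_z g (by rcases hi' with rfl | rfl <;> simp [hij])
    obtain ⟨i', j', hw⟩ := hNconj g hg 0 1
    rw [← hcd, ← map_inv, ← map_mul, ← map_mul] at hw hij
    have hd : d * c5 * d⁻¹ = c5 ∨ d * c5 * d⁻¹ = c5⁻¹ := by
      refine sign_table d ⟨j', ?_⟩
      simpa [dM] using congrArg Prod.snd (inj hw)
    refine hcent _ ?_ ?_ <;> change Commute (g * g) _ <;> rw [← hcd, ← map_mul] <;>
      refine (show Commute _ _ from ?_).map ι <;> refine Prod.ext ?_ ?_ <;> simp [dM]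
    · rcases three_conj c with h | h <;>
      · have h1 := mul_inv_eq_iff_eq_mul.mp h
        have h2 : c * c3⁻¹ = (c * c3 * c⁻¹)⁻¹ * c := by group
        rw [h] at h2
        try simp only [inv_inv] at h2
        first
          | rw [mul_assoc, h1, ← mul_assoc, h1, mul_assoc]
          | rw [mul_assoc, h1, ← mul_assoc, h2, mul_assoc]
    · rcases hd with h | h <;>
      · have h1 := mul_inv_eq_iff_eq_mul.mp h
        have h2 : d * c5⁻¹ = (d * c5 * d⁻¹)⁻¹ * d := by group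
        rw [h] at h2
        try simp only [inv_inv] at h2
        first
          | rw [mul_assoc, h1, ← mul_assoc, h1, mul_assoc]
          | rw [mul_assoc, h1, ← mul_assoc, h2, mul_assoc]
  -- the second line is the image of the first
  have hjc : Nat.card (centralizer ({ι (dM i j)} : Set G)) =
      Nat.card (centralizer ({ι (dM 1 0)} : Set G)) := by rw [← hgz, card_centralizer_conj]
  have hgcard : ∀ i' j', g * ι (dM i' j') * g⁻¹ ∈ ⟪ι⟫ := fun i' j' =>
    (mem_normalizer_iff.mp hg _).mp (hinD i' j')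
  obtain rfl : i = 0 := by
    by_contra hi
    have hmix : ∀ c d : Fin 3, c ≠ 0 → d ≠ 0 → 120 ≤ Nat.card (centralizer ({ι (dM c d)} : Set G)) := by
      intro c d hc hd
      obtain ⟨e, f, h⟩ := qM_table c d hc hd
      obtain ⟨e', f', h'⟩ := qM_table i j hi hj
      rw [← hcardq _ _ _ _ _ _ h, hcardq _ _ _ _ _ _ h', hjc]
      exact hbig 1
    obtain rfl : a = 0 := by
      by_contra ha
      have := hmix a b ha hab
      omega
    obtain ⟨c, d, hgw⟩ := hNconj g hg 0 b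
    have hc36 : Nat.card (centralizer ({ι (dM c d)} : Set G)) = 36 := by
      rw [← hgw, card_centralizer_conj, hycard]
    obtain rfl : c = 0 := by
      by_contra hc
      obtain rfl | hd := eq_or_ne d 0
      · have := hbig c; omega
      · have := hmix c d hc hd; omega
    have hd : d ≠ 0 := by
      rintro rfl
      rw [dM_zero, map_one, conj_eq_one_iff] at hgw
      exact hab (dM_inj 0 b 0 0 (inj (hgw.trans (by rw [dM_zero, map_one])))).2
    have hgw' : g * ι (dM 0 1) * g⁻¹ = ι (dM 0 (b * d)) := by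
      have hbb : dM 0 b ^ b.1 = dM 0 1 := dM_pow_self b hab
      have hdd : dM 0 d ^ b.1 = dM 0 (b * d) := dM_pow b d
      rw [← hbb, map_pow, ← conj_pow, hgw, ← map_pow, hdd]
    have hbd : b * d ≠ 0 := fin3_mul b d hab hd
    obtain ⟨e, f, h1, h2⟩ := qM_pair i (b * d) hi hbd
    obtain ⟨e', hh⟩ : ∃ e', qM e f * dM i j * (qM e f)⁻¹ = dM 1 e' ∧ e' ≠ 0 := by
      have hsplit : dM i j = dM i 0 * dM 0 j := by rw [dM_mul, add_zero, zero_add]
      obtain ⟨x, y, hxy⟩ := qM_norm e f 0 j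
      refine ⟨y, ?_, ?_⟩
      · rw [hsplit, ← conj_mul, h1, hxy]
        rw [(qM_snd e f j x y hxy).1, dM_mul, add_zero, zero_add]
      · exact (qM_snd e f j x y hxy).2 hj
    set h := ι (qM e f) * g with hdef
    have hz : h * ι (dM 1 0) * h⁻¹ = ι (dM 1 e') := by
      rw [← hq _ _ _ _ _ _ hh.1, ← hgz, hdef]; group
    have hw : h * ι (dM 0 1) * h⁻¹ = ι (dM 0 1) := by
      rw [hdef]
      calc ι (qM e f) * g * ι (dM 0 1) * (ι (qM e f) * g)⁻¹
          = ι (qM e f) * (g * ι (dM 0 1) * g⁻¹) * (ι (qM e f))⁻¹ := by group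
        _ = _ := by rw [hgw', hq _ _ _ _ _ _ h2]
    have hhN : h ∈ normalizer (⟪ι⟫ : Set G) := mul_mem (hNmem _ fun i' j' => by
      obtain ⟨x, y, hxy⟩ := qM_norm e f i' j'
      exact ⟨x, y, hq _ _ _ _ _ _ hxy⟩) hg
    have hwe : ∀ m : ℕ, h * ι (dM 0 1) ^ m * h⁻¹ = ι (dM 0 1) ^ m := fun m => by
      rw [← conj_pow, hw]
    have hsplit : ι (dM 1 e') = ι (dM 1 0) * ι (dM 0 1) ^ e'.1 := by
      rw [← map_pow, ← map_mul, ← dM_one_split]
    have h3 : ψ (⟨h, hhN⟩ ^ 3) = 1 := by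
      rw [ψ_ker]
      refine hcent _ ?_ ?_
      · refine mul_inv_eq_iff_eq_mul.mp ?_
        rw [Subgroup.coe_pow]
        calc h ^ 3 * ι (dM 1 0) * (h ^ 3)⁻¹ = h * (h * (h * ι (dM 1 0) * h⁻¹) * h⁻¹) * h⁻¹ := by
              simp only [pow_succ, pow_zero, one_mul]; group
          _ = ι (dM 1 0) := by
            have step : ∀ m : ℕ, h * (ι (dM 1 0) * ι (dM 0 1) ^ m) * h⁻¹ =
                ι (dM 1 0) * ι (dM 0 1) ^ (e'.1 + m) := fun m => by
              rw [← conj_mul, hz, hwe, hsplit, mul_assoc, ← pow_add]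
            rw [hz, hsplit, step, step, show e'.1 + (e'.1 + e'.1) = 3 * e'.1 by ring, pow_mul,
              ← map_pow, show dM 0 1 ^ 3 = 1 by decide +kernel, map_one, one_pow, mul_one]
      · refine mul_inv_eq_iff_eq_mul.mp ?_
        rw [Subgroup.coe_pow]
        calc h ^ 3 * ι (dM 0 1) * (h ^ 3)⁻¹ = h * (h * (h * ι (dM 0 1) * h⁻¹) * h⁻¹) * h⁻¹ := by
              simp only [pow_succ, pow_zero, one_mul]; group
          _ = ι (dM 0 1) := by rw [hw, hw, hw]
    rw [map_pow] at h3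
    have h4 := (ψ_ker _).mp (dihedral_cube _ h3)
    have h5 : h * ι (dM 1 0) * h⁻¹ = ι (dM 1 0) := by
      rw [mul_inv_eq_iff_eq_mul]
      exact ((mem_centralizer_iff.mp h4) _ (hinD 1 0)).symm
    exact hh.2 (dM_inj _ _ _ _ (inj (hz.symm.trans h5))).2
  have hw120 : ∀ c : Fin 3, c ≠ 0 → 120 ≤ Nat.card (centralizer ({ι (dM 0 c)} : Set G)) := by
    intro c hc
    obtain ⟨e, f, -, h⟩ := qM_axis c hc
    obtain ⟨e', f', -, h'⟩ := qM_axis j hj
    rw [← hcardq _ _ _ _ _ _ h, hcardq _ _ _ _ _ _ h', hjc]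
    exact hbig 1
  have ha : a ≠ 0 := by
    rintro rfl
    have := hw120 b hab
    omega
  obtain ⟨e₀, f₀, hy11⟩ := qM_table a b ha hab
  have hy : ι (qM e₀ f₀) * ι (dM a b) * (ι (qM e₀ f₀))⁻¹ = ι (dM 1 1) := hq _ _ _ _ _ _ hy11
  have hback : ∀ x, Commute x (ι (dM 1 1)) →
      Commute ((ι (qM e₀ f₀))⁻¹ * x * ι (qM e₀ f₀)) (ι (dM a b)) := by
    intro x hx
    rw [← Commute.conj_iff (ι (qM e₀ f₀)), hy]
    simpa [mul_assoc] using hx
  have y_norm : ∀ x, Commute x (ι (dM 1 1)) → ∀ i j, InD ι (x * ι (dM i j) * x⁻¹) := by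
    intro x hx
    have hqN : ι (qM e₀ f₀) ∈ normalizer (⟪ι⟫ : Set G) := hNmem _ fun i' j' => by
      obtain ⟨x, y, hxy⟩ := qM_norm e₀ f₀ i' j'
      exact ⟨x, y, hq _ _ _ _ _ _ hxy⟩
    have h := mul_mem (mul_mem hqN (hNmem _ (hyn _ (hback x hx)))) (inv_mem hqN)
    refine hNconj x ?_
    simpa [mul_assoc] using h
  have y_sq : ∀ x, Commute x (ι (dM 1 1)) → InD ι (x * x) := by
    intro x hx
    obtain ⟨c, d, hcd⟩ := hysq _ (hback x hx)
    obtain ⟨c', d', hcd'⟩ := qM_norm e₀ f₀ c d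
    refine ⟨c', d', ?_⟩
    rw [← hq _ _ _ _ _ _ hcd', ← hcd]
    group
  -- the exchanging element
  obtain ⟨c, hc, hgw⟩ : ∃ c, c ≠ 0 ∧ g * ι (dM 0 1) * g⁻¹ = ι (dM c 0) := by
    obtain ⟨c, d, hcd⟩ := hNconj g hg 0 1
    have hcard : 120 ≤ Nat.card (centralizer ({ι (dM c d)} : Set G)) := by
      rw [← hcd, card_centralizer_conj]
      exact hw120 1 (by decide)
    obtain rfl | hd := eq_or_ne d 0
    · refine ⟨c, ?_, hcd⟩
      rintro rfl
      rw [dM_zero, map_one, conj_eq_one_iff] at hcd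
      exact absurd (inj (hcd.trans ι.map_one.symm)) (by decide +kernel)
    · obtain rfl | hc := eq_or_ne c 0
      · exfalso
        obtain ⟨m, hm⟩ : ∃ m : Fin 3, dM 0 j ^ m.1 = dM 0 d := dM_snd_gen j d hj
        have h1 : g * ι (dM 1 0) ^ m.1 * g⁻¹ = g * ι (dM 0 1) * g⁻¹ := by
          rw [← conj_pow, hgz, ← map_pow, hm, hcd]
        rw [mul_left_inj, mul_right_inj, ← map_pow] at h1
        exact dM_fst_pow_ne m (inj h1)
      · exfalso
        obtain ⟨e, f, h⟩ := qM_table c d hc hd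
        rw [← hcardq _ _ _ _ _ _ h, ← hy, card_centralizer_conj] at hcard
        omega
  obtain ⟨e, f, hec, hfj⟩ := qM_pair c j hc hj
  set g1 := ι (qM e f) * g with hg1
  have g1z : g1 * ι (dM 1 0) * g1⁻¹ = ι (dM 0 1) := by
    rw [← hq _ _ _ _ _ _ hfj, ← hgz, hg1]; group
  have g1w : g1 * ι (dM 0 1) * g1⁻¹ = ι (dM 1 0) := by
    rw [← hq _ _ _ _ _ _ hec, ← hgw, hg1]; group
  have hconj_u : ∀ x, x * ι (dM 1 0) * x⁻¹ = ι (dM 0 1) → x * ι (dM 0 1) * x⁻¹ = ι (dM 1 0) →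
      x * ι (1, u5) * x⁻¹ = ι (1, u5) := by
    intro x h1 h2
    obtain ⟨p, hp⟩ := cent_D (x * ι (1, u5) * x⁻¹)
      (by
        rw [← h2, Commute.conj_iff]
        exact (show Commute ((1, u5) : M) (dM 0 1) from u5_comm.2).map ι)
      (by
        rw [← h1, Commute.conj_iff]
        exact (show Commute ((1, u5) : M) (dM 1 0) from u5_comm.1).map ι)
    rw [hp]
    have h2' : ι (cM p) * ι (cM p) = 1 := by
      rw [← hp, show x * ι (1, u5) * x⁻¹ * (x * ι (1, u5) * x⁻¹) =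
        x * (ι (1, u5) * ι (1, u5)) * x⁻¹ by group, ← map_mul,
        show ((1, u5) : M) * (1, u5) = 1 by decide +kernel, map_one, mul_one, mul_inv_cancel]
    have h1' : cM p ≠ 1 := fun e => by
      rw [e, map_one, conj_eq_one_iff] at hp
      exact absurd (inj (hp.trans ι.map_one.symm)) (by decide +kernel)
    rw [← map_mul, ← map_one ι] at h2'
    congr 1
    exact cM_invol p (inj h2') h1'
  obtain ⟨n, n_z, n_w, n_u, n_sq⟩ : ∃ n, n * ι (dM 1 0) * n⁻¹ = ι (dM 0 1) ∧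
      n * ι (dM 0 1) * n⁻¹ = ι (dM 1 0) ∧ n * ι (1, u5) * n⁻¹ = ι (1, u5) ∧ n * n = 1 := by
    obtain ⟨p, hp⟩ := cent_D (g1 * g1)
      (commute_iff_eq _ _ |>.mpr <| mul_inv_eq_iff_eq_mul.mp (by
        calc g1 * g1 * ι (dM 1 0) * (g1 * g1)⁻¹ = g1 * (g1 * ι (dM 1 0) * g1⁻¹) * g1⁻¹ := by group
          _ = _ := by rw [g1z, g1w]))
      (commute_iff_eq _ _ |>.mpr <| mul_inv_eq_iff_eq_mul.mp (by
        calc g1 * g1 * ι (dM 0 1) * (g1 * g1)⁻¹ = g1 * (g1 * ι (dM 0 1) * g1⁻¹) * g1⁻¹ := by group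
          _ = _ := by rw [g1w, g1z]))
    obtain ⟨p1, p2, p3⟩ := p
    have hp' : g1 * g1 = ι (dM p1 0) * ι (dM 0 p2) * ι (1, u5) ^ p3.1 := by
      rw [hp, ← map_pow, ← map_mul, ← map_mul, cM, dM_mul, add_zero, zero_add]
    have hfix : g1 * (g1 * g1) * g1⁻¹ = g1 * g1 := by group
    have hd1 : g1 * ι (dM p1 0) * g1⁻¹ = ι (dM 0 p1) := by
      rw [dM_fst_pow, map_pow, ← conj_pow, g1z, ← map_pow, ← dM_snd_pow]
    have hd2 : g1 * ι (dM 0 p2) * g1⁻¹ = ι (dM p2 0) := by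
      rw [dM_snd_pow, map_pow, ← conj_pow, g1w, ← map_pow, ← dM_fst_pow]
    obtain rfl : p1 = p2 := by
      rw [hp', ← conj_mul, ← conj_mul, ← conj_pow, hd1, hd2, hconj_u g1 g1z g1w, ← map_pow,
        ← map_mul, ← map_mul, ← map_mul, ← map_mul] at hfix
      exact swap_fix p1 p2 p3 (inj hfix)
    set n := ι (dM (-p1) 0) * g1 with hn
    have hnn : n * n = ι (1, u5) ^ p3.1 := by
      calc n * n = ι (dM (-p1) 0) * (g1 * ι (dM (-p1) 0) * g1⁻¹) * (g1 * g1) := by rw [hn]; group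
        _ = _ := by
          rw [show dM (-p1) 0 = (dM p1 0)⁻¹ by rw [dM_inv, neg_zero], map_inv, ← conj_inv, hd1,
            ← map_inv, ← map_inv, hp', ← map_pow, ← map_mul, ← map_mul, ← map_mul, ← map_mul]
          congr 1; exact swap_sq' p1 p3
    have nz : n * ι (dM 1 0) * n⁻¹ = ι (dM 0 1) := by
      calc n * ι (dM 1 0) * n⁻¹ = ι (dM (-p1) 0) * (g1 * ι (dM 1 0) * g1⁻¹) * (ι (dM (-p1) 0))⁻¹ := by
            rw [hn]; group
        _ = _ := by
          rw [g1z, ← map_inv, ← map_mul, ← map_mul, dM_conj_dM]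
    have nw : n * ι (dM 0 1) * n⁻¹ = ι (dM 1 0) := by
      calc n * ι (dM 0 1) * n⁻¹ = ι (dM (-p1) 0) * (g1 * ι (dM 0 1) * g1⁻¹) * (ι (dM (-p1) 0))⁻¹ := by
            rw [hn]; group
        _ = _ := by
          rw [g1w, ← map_inv, ← map_mul, ← map_mul, dM_conj_dM]
    refine ⟨n, nz, nw, hconj_u n nz nw, ?_⟩
    have hny : Commute n (ι (dM 1 1)) := mul_inv_eq_iff_eq_mul.mp (by
      rw [show dM 1 1 = dM 1 0 * dM 0 1 by decide +kernel, map_mul, ← conj_mul, nz, nw,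
        ← map_mul, ← map_mul]
      congr 1)
    obtain ⟨x, y, hxy⟩ := y_sq n hny
    rw [hnn, ← map_pow] at hxy
    rw [hnn, ← map_pow, ← map_one ι, u5_pow_inD p3 x y (inj hxy)]
  have n_inv : n⁻¹ = n := inv_eq_of_mul_eq_one_right n_sq
  rw [n_inv] at n_z n_w n_u
  -- the type
  set s := ι (swap 0 1, 1) with hs
  obtain ⟨⟨a', b'⟩, hb⟩ : n * s * n ∈ ι.range := by
    refine norm_z _ (Or.inl ?_)
    calc n * s * n * ι (dM 1 0) * (n * s * n)⁻¹
        = n * (s * (n * ι (dM 1 0) * n) * s⁻¹) * n := by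
          rw [mul_inv_rev, mul_inv_rev, n_inv]; group
      _ = n * ι (dM 0 1) * n := by
        rw [n_z, hs, ← map_inv, ← map_mul, ← map_mul,
          show ((swap 0 1, 1) : M) * dM 0 1 * ((swap 0 1, 1) : M)⁻¹ = dM 0 1 by decide +kernel]
      _ = _ := n_w
  have hbsq : ((a', b') : M) * (a', b') = 1 := inj (by
    rw [map_mul, hb, map_one, show n * s * n * (n * s * n) = n * (s * (n * n) * s) * n by group,
      n_sq, mul_one, hs, ← map_mul, show ((swap 0 1, 1) : M) * (swap 0 1, 1) = 1 by decide +kernel,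
      map_one, mul_one, n_sq])
  have hbz : ((a', b') : M) * dM 1 0 * ((a', b') : M)⁻¹ = dM 1 0 := inj (by
    rw [map_mul, map_mul, map_inv, hb]
    calc n * s * n * ι (dM 1 0) * (n * s * n)⁻¹
        = n * (s * (n * ι (dM 1 0) * n) * s⁻¹) * n := by
          rw [mul_inv_rev, mul_inv_rev, n_inv]; group
      _ = n * ι (dM 0 1) * n := by
        rw [n_z, hs, ← map_inv, ← map_mul, ← map_mul,
          show ((swap 0 1, 1) : M) * dM 0 1 * ((swap 0 1, 1) : M)⁻¹ = dM 0 1 by decide +kernel]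
      _ = _ := n_w)
  have hbw : ((a', b') : M) * dM 0 1 * ((a', b') : M)⁻¹ = dM 0 2 := inj (by
    rw [map_mul, map_mul, map_inv, hb]
    calc n * s * n * ι (dM 0 1) * (n * s * n)⁻¹
        = n * (s * (n * ι (dM 0 1) * n) * s⁻¹) * n := by
          rw [mul_inv_rev, mul_inv_rev, n_inv]; group
      _ = n * (ι (dM 1 0) * ι (dM 1 0)) * n := by
        rw [n_w, hs, ← map_inv, ← map_mul, ← map_mul, ← map_mul,
          show ((swap 0 1, 1) : M) * dM 1 0 * ((swap 0 1, 1) : M)⁻¹ = dM 1 0 * dM 1 0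
            by decide +kernel]
      _ = n * ι (dM 1 0) * n * (n * ι (dM 1 0) * n) := by
        rw [show n * ι (dM 1 0) * n * (n * ι (dM 1 0) * n) =
          n * ι (dM 1 0) * (n * n) * ι (dM 1 0) * n by group, n_sq]; group
      _ = _ := by rw [n_z, ← map_mul]; congr 1)
  obtain rfl : a' = 1 := three_fix a' (by simpa [dM] using congrArg Prod.fst hbz)
    (congrArg Prod.fst hbsq)
  obtain ⟨m, hm⟩ := type_table b' (congrArg Prod.snd hbsq)
    (by
      have h := congrArg Prod.snd hbw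
      have e : c5 ^ 2 = c5⁻¹ := by decide +kernel
      simpa [dM, e] using h)
  set d := ι (dM 0 m) with hd
  have hdconj : ∀ x : M, d * ι x * d⁻¹ = ι (dM 0 m * x * (dM 0 m)⁻¹) := fun x => by
    rw [hd, map_mul, map_mul, map_inv]
  set n' := d * n * d⁻¹ with hn'
  have key : ∀ x y : M, n * ι x * n = ι y → dM 0 m * x * (dM 0 m)⁻¹ = x →
      n' * ι x * n' = ι (dM 0 m * y * (dM 0 m)⁻¹) := by
    intro x y hxy hx
    have hdx : d⁻¹ * ι x * d = ι x := by
      have h := hdconj x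
      rw [hx] at h
      calc d⁻¹ * ι x * d = d⁻¹ * (d * ι x * d⁻¹) * d := by rw [h]
        _ = ι x := by group
    calc n' * ι x * n' = d * (n * (d⁻¹ * ι x * d) * n) * d⁻¹ := by rw [hn']; group
      _ = _ := by rw [hdx, hxy, hdconj]
  refine ⟨⟨ι, inj, norm_z, n', ?_, ?_, ?_, ?_, ?_, cent_D,
    by rw [← hy, card_centralizer_conj, hycard], y_norm, not27, ψ, ψ_surj, ψ_ker⟩⟩
  · calc n' * n' = d * (n * n) * d⁻¹ := by rw [hn']; group
      _ = 1 := by rw [n_sq, mul_one, mul_inv_cancel]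
  · rw [key _ _ n_z (dM_conj_dM 0 m 1 0), dM_conj_dM]
  · rw [key _ _ n_w (dM_conj_dM 0 m 0 1), dM_conj_dM]
  · rw [key _ _ n_u (dM_fix m).1, (dM_fix m).1]
  · rw [key _ _ hb.symm (dM_fix m).2]
    rcases hm with hm | hm
    · left; congr 1; exact Prod.ext (by simp [dM]) (by simpa [dM] using hm)
    · right; congr 1; exact Prod.ext (by simp [dM]) (by simpa [dM] using hm)

end CfsgLib.SymEight40
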