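import Cfsg.Agent.SymEight40.Tables

/-!
Finite facts about the symmetric group of degree five used in the second case.
-/

set_option autoImplicit false
set_option maxRecDepth 8000

open Equiv Subgroup

namespace CfsgLib.SymEight40

/-- The double transposition attached to the exchanging element. -/
def r5 : Perm (Fin 5) := p5 * u5
/-- A double transposition exchanging `u5` and `p5`. -/
def a5 : Perm (Fin 5) := swap 0 3 * swap 1 4

/-- The sign correction. -/
def eps (x : Perm (Fin 5)) : Perm (Fin 5) := if Perm.sign x = 1 then 1 else u5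

theorem sign_eps (x : Perm (Fin 5)) : Perm.sign (eps x) = Perm.sign x := by
  rcases Int.units_eq_one_or (Perm.sign x) with h | h <;> simp [eps, h, u5]

theorem eps_cases (x : Perm (Fin 5)) : eps x = 1 ∨ eps x = u5 := by
  unfold eps; split <;> simp

theorem eps_congr {x y : Perm (Fin 5)} (h : Perm.sign x = Perm.sign y) : eps x = eps y := by
  rw [eps, eps, h]

theorem eps_even {x : Perm (Fin 5)} (h : Perm.sign x = 1) : eps x = 1 := if_pos h

theorem eps_mul (x y : Perm (Fin 5)) : eps (x * y) = eps x * eps y := by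
  rcases Int.units_eq_one_or (Perm.sign x) with h | h <;>
    rcases Int.units_eq_one_or (Perm.sign y) with h' | h' <;>
    simp [eps, h, h', u5]

theorem eps_sq (x : Perm (Fin 5)) : eps x * eps x = 1 := by
  rcases eps_cases x with h | h <;> rw [h] <;> decide +kernel

theorem eps_comm (x y : Perm (Fin 5)) : eps x * eps y = eps y * eps x := by
  rcases eps_cases x with h | h <;> rcases eps_cases y with h' | h' <;> rw [h, h'] <;> simp

theorem sign_even (x : Perm (Fin 5)) : Perm.sign (x * eps x) = 1 ∧ Perm.sign (eps x * x) = 1 := by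
  simp only [map_mul, sign_eps, Int.units_mul_self, and_self]

theorem a5_facts : Perm.sign c5 = 1 ∧ Perm.sign r5 = 1 ∧ Perm.sign a5 = 1 ∧ a5 * a5 = 1 ∧
    a5 * r5 * a5⁻¹ = r5 ∧ a5 * u5 * a5⁻¹ = p5 ∧ r5 * r5 = 1 ∧ r5 * u5 = p5 ∧
    Perm.sign (a5 * r5) = 1 ∧ a5 ≠ 1 ∧ r5 ≠ 1 ∧ a5 ≠ r5 ∧ u5 * r5 = r5 * u5 ∧
    (c5 * a5) ^ 5 = 1 ∧ u5 * a5 * u5 = a5 * r5 ∧ r5 = p5 * u5 := by
  decide +kernel

theorem central_five : ∀ q : Perm (Fin 5), q * c5 = c5 * q → q * a5 = a5 * q → q * r5 = r5 * q →
    q = 1 := by decide +kernel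

theorem cent_u5_r5 : ∀ y : Perm (Fin 5), y * u5 = u5 * y → y * r5 = r5 * y →
    ∃ f h : Bool, y = (if f then r5 else 1) * (if h then u5 else 1) := by decide +kernel

theorem cent_swap3 : ∀ a : Perm (Fin 3), a * swap 0 1 = swap 0 1 * a →
    a = 1 ∨ a = swap 0 1 := by decide +kernel

theorem cent_four : ∀ y : Perm (Fin 5), y * r5 = r5 * y → y * a5 = a5 * y →
    Perm.sign y = 1 ∧ (y = 1 ∨ y = r5 ∨ y = a5 ∨ y = a5 * r5) := by decide +kernel

theorem invol_odd : ∀ x : Perm (Fin 5), x * x = 1 → Perm.sign x = -1 →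
    ∃ g : Perm (Fin 5), Perm.sign g = 1 ∧ g * u5 * g⁻¹ = x := by decide +kernel

theorem invol_even : ∀ x : Perm (Fin 5), x * x = 1 → x ≠ 1 → Perm.sign x = 1 →
    ∃ g : Perm (Fin 5), Perm.sign g = 1 ∧ g * r5 * g⁻¹ = x := by decide +kernel

theorem cent_r5_pow : ∀ y : Perm (Fin 5), y * r5 = r5 * y → y ^ 8 = 1 := by decide +kernel

theorem a5_gen : closure ({c5, r5, a5} : Set (Perm (Fin 5))) = alternatingGroup (Fin 5) := by
  set K := closure ({c5, r5, a5} : Set (Perm (Fin 5))) with hK
  have hc : c5 ∈ K := subset_closure (by simp)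
  have hr : r5 ∈ K := subset_closure (by simp)
  have ha : a5 ∈ K := subset_closure (by simp)
  have hle : K ≤ alternatingGroup (Fin 5) := by
    rw [hK, closure_le]
    rintro x (rfl | rfl | rfl)
    exacts [a5_facts.1, a5_facts.2.1, a5_facts.2.2.1]
  refine Subgroup.eq_of_le_of_card_ge hle ?_
  have h3 : 3 ∣ Nat.card K := by
    have : orderOf c5 = 3 := by
      have : Fact (Nat.Prime 3) := ⟨Nat.prime_three⟩
      exact orderOf_eq_prime (by decide +kernel) (by decide +kernel)
    exact this ▸ Subgroup.orderOf_dvd_natCard _ hc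
  have h5 : 5 ∣ Nat.card K := by
    have : orderOf (c5 * a5) = 5 := by
      have : Fact (Nat.Prime 5) := ⟨Nat.prime_five⟩
      exact orderOf_eq_prime a5_facts.2.2.2.2.2.2.2.2.2.2.2.2.2.1 (by decide +kernel)
    have h := Subgroup.orderOf_dvd_natCard K (mul_mem hc ha)
    rw [this] at h; exact h
  have h4 : 4 ∣ Nat.card K := by
    let V : Subgroup (Perm (Fin 5)) :=
      { carrier := {1, r5, a5, a5 * r5}
        one_mem' := by simp
        mul_mem' := by
          intro a b ha hb
          simp only [Set.mem_insert_iff, Set.mem_singleton_iff] at ha hb ⊢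
          rcases ha with rfl | rfl | rfl | rfl <;> rcases hb with rfl | rfl | rfl | rfl <;>
            decide +kernel
        inv_mem' := by
          intro a ha
          simp only [Set.mem_insert_iff, Set.mem_singleton_iff] at ha ⊢
          rcases ha with rfl | rfl | rfl | rfl <;> decide +kernel }
    have hV : Nat.card V = 4 := by
      change Nat.card ({1, r5, a5, a5 * r5} : Set (Perm (Fin 5))) = 4
      rw [Nat.card_coe_set_eq, Set.ncard_eq_toFinset_card']
      decide +kernel
    have hVK : V ≤ K := by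
      intro x hx
      rcases hx with rfl | rfl | rfl | rfl
      exacts [one_mem _, hr, ha, mul_mem ha hr]
    exact hV ▸ Subgroup.card_dvd_of_le hVK
  have h60 : 60 ∣ Nat.card K :=
    Nat.Coprime.mul_dvd_of_dvd_of_dvd (by norm_num)
      (Nat.Coprime.mul_dvd_of_dvd_of_dvd (by norm_num) h3 h4) h5
  refine le_trans ?_ (Nat.le_of_dvd Nat.card_pos h60)
  rw [nat_card_alternatingGroup, Nat.card_fin]
  decide

end CfsgLib.SymEight40
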