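import Cfsg.Agent.SymEight40.Exists

/-!
The three-local hypotheses give a configuration.
-/

set_option autoImplicit false

open Equiv Subgroup

namespace CfsgLib.SymEight40

variable {G : Type*} [Group G] [Finite G]

local notation "⟪" ι "⟫" => closure ({ι (dM 1 0), ι (dM 0 1)} : Set _)

/-- A subgroup of a finite group carried into itself by conjugation is normalised. -/
theorem mem_normalizer_of_conj_mem (H : Subgroup G) (g : G) (h : ∀ x ∈ H, g * x * g⁻¹ ∈ H) :
    g ∈ normalizer (H : Set G) := by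
  rw [mem_normalizer_iff]
  refine fun x => ⟨h x, fun hx => ?_⟩
  have hle : H.map (MulAut.conj g).toMonoidHom ≤ H := by
    rintro _ ⟨y, hy, rfl⟩; exact h y hy
  have heq : H.map (MulAut.conj g).toMonoidHom = H :=
    Subgroup.eq_of_le_of_card_ge hle (le_of_eq (Nat.card_congr
      (Subgroup.equivMapOfInjective H _ (MulAut.conj g).injective).toEquiv))
  rw [← heq] at hx
  obtain ⟨y, hy, hyx⟩ := hx
  rwa [← (MulAut.conj g).injective hyx]

/-- The three-local hypotheses give a configuration. -/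
theorem exists_config (P : Sylow 3 G) (D : Subgroup G) (hDP : D = P) (y z : G)
    (hgen : closure {y, z} = D) (hcomm : IsMulCommutative D) (hcard : Nat.card D = 9)
    (hexp : ∀ a ∈ D, a ^ 3 = 1)
    (hC : Nat.card (centralizer (D : Set G)) = 18)
    [hcn : ((centralizer (D : Set G)).subgroupOf (normalizer (D : Set G))).Normal]
    (eNC : normalizer (D : Set G) ⧸ (centralizer (D : Set G)).subgroupOf (normalizer (D : Set G))
      ≃* DihedralGroup 4)
    (hyn : (D.subgroupOf (centralizer ({y} : Set G))).Normal)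
    (hycard : Nat.card (centralizer ({y} : Set G)) = 36)
    (hysq : ∀ g ∈ centralizer ({y} : Set G), g ^ 2 ∈ D)
    (eL : normalizer (zpowers z : Set G) ≃* M) : Nonempty (Config G) := by
  classical
  have hyD : y ∈ D := hgen ▸ subset_closure (by simp)
  have hzD : z ∈ D := hgen ▸ subset_closure (by simp)
  have hz1 : z ≠ 1 := by
    intro hz
    have h1 : D ≤ zpowers y := by
      rw [← hgen, closure_le]
      rintro u (rfl | rfl)
      · exact mem_zpowers _
      · exact hz ▸ one_mem _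
    have h2 := Nat.le_of_dvd (by norm_num)
      (Nat.card_zpowers y ▸ orderOf_dvd_of_pow_eq_one (hexp y hyD) : Nat.card (zpowers y) ∣ 3)
    have h3 := Subgroup.card_le_of_le h1
    omega
  have hDc : ∀ a ∈ D, ∀ b ∈ D, a * b = b * a := fun a ha b hb =>
    congrArg Subtype.val (hcomm.is_comm.comm (⟨a, ha⟩ : D) ⟨b, hb⟩)
  set ι : M →* G := (normalizer (zpowers z : Set G)).subtype.comp eL.symm.toMonoidHom with hι
  have inj : ∀ ⦃a b : M⦄, ι a = ι b → a = b := fun a b h =>
    eL.symm.injective (Subtype.val_injective h)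
  have range₀ : ι.range = normalizer (zpowers z : Set G) := by
    rw [hι, MonoidHom.range_comp, MonoidHom.range_eq_top.2 eL.symm.surjective,
      ← MonoidHom.range_eq_map, range_subtype]
  have hzN : z ∈ normalizer (zpowers z : Set G) := le_normalizer (mem_zpowers z)
  obtain ⟨⟨σ, τ⟩, hm⟩ : ∃ m, ι m = z := by rwa [← range₀] at hzN
  have hm3 : ((σ, τ) : M) ^ 3 = 1 := inj (by rw [map_pow, hm, hexp z hzD, map_one])
  obtain rfl : τ = 1 := by
    refine five_table τ ?_ ?_
    · have h := congrArg Prod.snd hm3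
      simpa [pow_succ, mul_assoc] using h
    set c : Perm (Fin 5) := swap 0 1 * swap 1 2 * swap 2 3 * swap 3 4
    have hgN : ι (1, c) ∈ normalizer (zpowers z : Set G) := range₀ ▸ ⟨_, rfl⟩
    have hmem : ι (1, c) * z * (ι (1, c))⁻¹ ∈ zpowers z :=
      (mem_normalizer_iff.1 hgN z).1 (mem_zpowers z)
    obtain ⟨k, hk⟩ := (Submonoid.mem_powers_iff _ _).1 ((mem_powers_iff_mem_zpowers).2 hmem)
    have hk' : ι (1, c) * z * (ι (1, c))⁻¹ = z ^ (k % 3) := by
      rw [← hk]; exact pow_eq_pow_mod k (hexp z hzD)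
    rw [← hm, ← map_inv, ← map_mul, ← map_mul, ← map_pow] at hk'
    have h := congrArg Prod.snd (inj hk')
    have h3 : k % 3 < 3 := Nat.mod_lt k (by norm_num)
    simp only [List.mem_cons, List.not_mem_nil, or_false]
    interval_cases hj : k % 3 <;> simp_all [pow_succ]
  have hzM : ι (dM 1 0) = z ∨ ι (dM 1 0) = z⁻¹ := by
    rcases three_table σ (congrArg Prod.fst hm3) with rfl | rfl | rfl
    · exact absurd (by rw [← hm]; exact map_one ι) hz1
    · left; rw [← hm]; congr 1
    · right; rw [← hm, ← map_inv]; congr 1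
  have hzp : zpowers (ι (dM 1 0)) = zpowers z := by
    rcases hzM with e | e <;> rw [e]
    exact zpowers_inv
  have norm_z : ∀ g, g * ι (dM 1 0) * g⁻¹ = ι (dM 1 0) ∨ g * ι (dM 1 0) * g⁻¹ = ι (dM 2 0) →
      g ∈ ι.range := by
    intro g hg
    rw [range₀, ← hzp]
    refine mem_normalizer_of_conj_mem _ g fun x hx => ?_
    obtain ⟨k, rfl⟩ := mem_zpowers_iff.mp hx
    rw [← conj_zpow]
    refine zpow_mem ?_ k
    rcases hg with e | e <;> rw [e]
    · exact mem_zpowers _
    · rw [show dM 2 0 = dM 1 0 ^ (2 : Fin 3).1 from dM_fst_pow 2, map_pow]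
      exact pow_mem (mem_zpowers _) _
  have hD0card : Nat.card (⟪ι⟫ : Subgroup G) = 9 := by
    let f : Fin 3 × Fin 3 → (⟪ι⟫ : Subgroup G) := fun p =>
      ⟨ι (dM p.1 p.2), (inD_iff ι _).mpr ⟨_, _, rfl⟩⟩
    have hf : Function.Bijective f := by
      refine ⟨fun p q h => ?_, fun x => ?_⟩
      · have h' : ι (dM p.1 p.2) = ι (dM q.1 q.2) := congrArg (fun v : (⟪ι⟫ : Subgroup G) => (v : G)) h
        exact Prod.ext_iff.mpr (dM_inj _ _ _ _ (inj h'))
      · obtain ⟨i, j, e⟩ := (inD_iff ι _).mp x.2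
        exact ⟨(i, j), Subtype.ext e.symm⟩
    rw [← Nat.card_eq_of_bijective f hf, Nat.card_prod, Nat.card_eq_fintype_card, Fintype.card_fin]
  have hpD : IsPGroup 3 (⟪ι⟫ : Subgroup G) := IsPGroup.of_card (n := 2) (by rw [hD0card]; rfl)
  obtain ⟨Q, hQ⟩ := hpD.exists_le_sylow
  obtain ⟨c, rfl⟩ := MulAction.exists_smul_eq G P Q
  have hQeq : (⟪ι⟫ : Subgroup G) = ((c • P : Sylow 3 G) : Subgroup G) := by
    refine Subgroup.eq_of_le_of_card_ge hQ ?_
    rw [hD0card, ← hcard, hDP]
    exact le_of_eq (Nat.card_congr (Sylow.equiv (c • P) P).toEquiv)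
  have hmem : ∀ x, x ∈ (⟪ι⟫ : Subgroup G) ↔ c⁻¹ * x * c ∈ D := by
    intro x
    rw [hQeq, hDP, Sylow.coe_subgroup_smul, Subgroup.mem_pointwise_smul_iff_inv_smul_mem]
    simp [MulAut.smul_def, MulAut.conj_apply]
  have hnorm : ∀ x, x ∈ normalizer ((⟪ι⟫ : Subgroup G) : Set G) ↔
      c⁻¹ * x * c ∈ normalizer (D : Set G) := by
    intro x
    rw [mem_normalizer_iff, mem_normalizer_iff]
    constructor
    · intro h u
      have h1 := h (c * u * c⁻¹)
      rw [hmem, hmem] at h1
      simpa [mul_assoc] using h1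
    · intro h u
      have h1 := h (c⁻¹ * u * c)
      rw [hmem, hmem]
      simpa [mul_assoc] using h1
  have hcmem : ∀ x, x ∈ centralizer ((⟪ι⟫ : Subgroup G) : Set G) ↔
      c⁻¹ * x * c ∈ centralizer (D : Set G) := by
    intro x
    rw [mem_centralizer_iff, mem_centralizer_iff]
    constructor
    · intro h u hu
      have h1 : c * u * c⁻¹ * x = x * (c * u * c⁻¹) :=
        h _ (by rw [SetLike.mem_coe, hmem]; simpa [mul_assoc] using hu)
      calc u * (c⁻¹ * x * c) = c⁻¹ * (c * u * c⁻¹ * x) * c := by group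
        _ = _ := by rw [h1]; group
    · intro h u hu
      have h1 : c⁻¹ * u * c * (c⁻¹ * x * c) = c⁻¹ * x * c * (c⁻¹ * u * c) :=
        h _ ((hmem u).mp hu)
      calc u * x = c * (c⁻¹ * u * c * (c⁻¹ * x * c)) * c⁻¹ := by group
        _ = _ := by rw [h1]; group
  have cent_D : ∀ g, Commute g (ι (dM 1 0)) → Commute g (ι (dM 0 1)) → ∃ p, g = ι (cM p) := by
    intro g h1 h2
    have hgc : g ∈ centralizer ((⟪ι⟫ : Subgroup G) : Set G) := by
      rw [centralizer_closure, mem_centralizer_iff]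
      rintro x (rfl | rfl)
      exacts [h1.eq.symm, h2.eq.symm]
    have hcm : ∀ p, ι (cM p) ∈ centralizer ((⟪ι⟫ : Subgroup G) : Set G) := fun p => by
      rw [centralizer_closure, mem_centralizer_iff]
      rintro x (rfl | rfl) <;> rw [← map_mul, ← map_mul]
      exacts [congrArg ι (cM_comm p).1.symm, congrArg ι (cM_comm p).2.symm]
    let f : Fin 3 × Fin 3 × Fin 2 → centralizer ((⟪ι⟫ : Subgroup G) : Set G) :=
      fun p => ⟨ι (cM p), hcm p⟩
    have hf : Function.Injective f := fun p q h =>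
      cM_inj p q (inj (show ι (cM p) = ι (cM q) from
        congrArg (fun v : centralizer ((⟪ι⟫ : Subgroup G) : Set G) => (v : G)) h))
    have hcardC : Nat.card (centralizer ((⟪ι⟫ : Subgroup G) : Set G)) =
        Nat.card (Fin 3 × Fin 3 × Fin 2) := by
      rw [Nat.card_eq_fintype_card (α := Fin 3 × Fin 3 × Fin 2)]
      refine (Nat.card_congr ((MulAut.conj c⁻¹).toEquiv.subtypeEquiv fun a => ?_)).trans hC
      simpa [MulAut.conj_apply] using hcmem a
    obtain ⟨p, hp⟩ := ((Nat.bijective_iff_injective_and_card f).mpr ⟨hf, hcardC.symm⟩).2 ⟨g, hgc⟩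
    exact ⟨p, (congrArg Subtype.val hp).symm⟩
  have h27 : ¬ 27 ∣ Nat.card G := by
    intro h
    have : Fact (Nat.Prime 3) := ⟨Nat.prime_three⟩
    have := P.pow_dvd_card_of_pow_dvd_card (n := 3) h
    rw [← hDP, hcard] at this
    norm_num at this
  let φ : normalizer ((⟪ι⟫ : Subgroup G) : Set G) →* normalizer (D : Set G) :=
    { toFun := fun x => ⟨c⁻¹ * x * c, (hnorm x).mp x.2⟩
      map_one' := Subtype.ext (by simp)
      map_mul' := fun x x' => Subtype.ext (by simp only [Subgroup.coe_mul]; group) }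
  let ψ : normalizer ((⟪ι⟫ : Subgroup G) : Set G) →* DihedralGroup 4 :=
    eNC.toMonoidHom.comp ((QuotientGroup.mk' _).comp φ)
  have ψ_surj : Function.Surjective ψ := by
    intro d
    obtain ⟨x, hx⟩ := QuotientGroup.mk'_surjective _ (eNC.symm d)
    refine ⟨⟨c * x * c⁻¹, (hnorm _).mpr (by simpa [mul_assoc] using x.2)⟩, ?_⟩
    change eNC (QuotientGroup.mk' _ (φ _)) = d
    rw [show φ ⟨c * x * c⁻¹, _⟩ = x from Subtype.ext (show c⁻¹ * (c * x * c⁻¹) * c = x by group), hx,
      MulEquiv.apply_symm_apply]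
  have ψ_ker : ∀ g, ψ g = 1 ↔ (g : G) ∈ centralizer ((⟪ι⟫ : Subgroup G) : Set G) := by
    intro g
    change eNC (QuotientGroup.mk (φ g)) = 1 ↔ _
    rw [MulEquiv.map_eq_one_iff, QuotientGroup.eq_one_iff, mem_subgroupOf, hcmem]
    exact Iff.rfl
  obtain ⟨a, b, hab⟩ : InD ι (c * y * c⁻¹) :=
    (inD_iff ι _).mp ((hmem _).mpr (by simpa [mul_assoc] using hyD))
  have hback : ∀ g, Commute g (ι (dM a b)) → c⁻¹ * g * c ∈ centralizer ({y} : Set G) := by
    intro g hg
    rw [← hab] at hg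
    rw [mem_centralizer_singleton_iff]
    calc c⁻¹ * g * c * y = c⁻¹ * (g * (c * y * c⁻¹)) * c := by group
      _ = _ := by rw [hg.eq]; group
  refine exists_config_of ι inj norm_z h27 cent_D ψ ψ_surj ψ_ker a b
    (by rw [← hab, card_centralizer_conj, hycard]) ?_ ?_
  · intro g hg i j
    rw [← inD_iff, hmem]
    have hx : c⁻¹ * ι (dM i j) * c ∈ D := (hmem _).mp ((inD_iff ι _).mpr ⟨i, j, rfl⟩)
    have hxC : c⁻¹ * ι (dM i j) * c ∈ centralizer ({y} : Set G) :=
      mem_centralizer_singleton_iff.mpr (hDc _ hx _ hyD)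
    have h := hyn.conj_mem ⟨_, hxC⟩ (mem_subgroupOf.mpr hx) ⟨_, hback g hg⟩
    rw [mem_subgroupOf] at h
    simpa [mul_assoc] using h
  · intro g hg
    rw [← inD_iff, hmem]
    simpa [pow_two, mul_assoc] using hysq _ (hback g hg)

end CfsgLib.SymEight40
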