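import Cfsg.Agent.SymEight40.SixTable

/-!
Finite facts about the symmetric group of degree six used to bound the centraliser of an involution
in the second case.
-/

set_option autoImplicit false
set_option maxRecDepth 20000

open Equiv

namespace CfsgLib.SymEight40

/-- The three-cycles on six points. -/
def cycList6 : List (Perm (Fin 6)) :=
  (List.finRange 6).flatMap fun a => (List.finRange 6).flatMap fun b =>
    (List.finRange 6).filterMap fun c =>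
      if a < b ∧ a < c ∧ b ≠ c then some (swap a b * swap b c) else none

/-- The elements of order three on six points. -/
def threeList6 : List (Perm (Fin 6)) :=
  cycList6 ++ (cycList6.flatMap fun x => cycList6.filterMap fun y =>
    if x 0 ≠ 0 ∧ (∀ i, x i = i ∨ y i = i) then some (x * y) else none)

theorem mem_threeList6 : ∀ x : Perm (Fin 6), x * x * x = 1 → x ≠ 1 → x ∈ threeList6 := by
  decide +kernel

/-- An element of the four-group normalised by `Z`, modulo `R`. -/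
abbrev VSix (R S Z x : Perm (Fin 6)) : Prop :=
  (x * x = 1 ∨ x * x = R) ∧ x ≠ 1 ∧ x ≠ R ∧ x * R = R * x ∧
    (x * S * x⁻¹ * S⁻¹ = 1 ∨ x * S * x⁻¹ * S⁻¹ = R) ∧
    (x * (Z * x * Z⁻¹) * x⁻¹ * (Z * x * Z⁻¹)⁻¹ = 1 ∨
      x * (Z * x * Z⁻¹) * x⁻¹ * (Z * x * Z⁻¹)⁻¹ = R) ∧
    (x * (Z * x * Z⁻¹) * (Z⁻¹ * x * Z) = 1 ∨ x * (Z * x * Z⁻¹) * (Z⁻¹ * x * Z) = R)

set_option synthInstance.maxSize 20000 in
set_option synthInstance.maxHeartbeats 800000 in
set_option maxHeartbeats 2000000 in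
theorem six_four_exists : ∀ j : Fin 3,
    ∀ S ∈ invList6, S * rep6 j = rep6 j * S → S ≠ rep6 j →
      S.support.card = (rep6 j).support.card →
    ∀ Z ∈ threeList6, Z * rep6 j = rep6 j * Z → S * Z * S * Z = 1 →
    ∀ W ∈ threeList6, W * S = S * W → rep6 j * W * rep6 j * W = 1 → W * Z = Z * W →
    ∃ p ∈ invList6, p * rep6 j = rep6 j * p ∧ VSix (rep6 j) S Z (Z * p * Z⁻¹ * p⁻¹) ∧
      Z * p * Z⁻¹ * p⁻¹ * (Z * p * Z⁻¹ * p⁻¹) = 1 ∧
      S * (Z * (Z * p * Z⁻¹ * p⁻¹) * Z⁻¹ * S * (Z * (Z * p * Z⁻¹ * p⁻¹) * Z⁻¹)⁻¹) ≠ rep6 j ∧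
      Z.support.card ≠ (Z * W).support.card ∧
      ∃ x ∈ threeList6, x * S * x⁻¹ = rep6 j ∧
        x * (Z * (Z * p * Z⁻¹ * p⁻¹) * Z⁻¹ * S * (Z * (Z * p * Z⁻¹ * p⁻¹) * Z⁻¹)⁻¹) * x⁻¹ = S ∧
        x * (S * (Z * (Z * p * Z⁻¹ * p⁻¹) * Z⁻¹ * S * (Z * (Z * p * Z⁻¹ * p⁻¹) * Z⁻¹)⁻¹) * rep6 j) =
          S * (Z * (Z * p * Z⁻¹ * p⁻¹) * Z⁻¹ * S * (Z * (Z * p * Z⁻¹ * p⁻¹) * Z⁻¹)⁻¹) * rep6 j * x ∧
        x.support.card = (Z * W).support.card := by
  decide +kernel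

set_option synthInstance.maxSize 20000 in
set_option synthInstance.maxHeartbeats 800000 in
set_option maxHeartbeats 2000000 in
theorem six_four_unique : ∀ j : Fin 3, ∀ x : Perm (Fin 6), x * rep6 j = rep6 j * x →
    ∀ S ∈ invList6, S * rep6 j = rep6 j * S → S ≠ rep6 j →
      S.support.card = (rep6 j).support.card →
    ∀ Z ∈ threeList6, Z * rep6 j = rep6 j * Z → S * Z * S * Z = 1 →
    VSix (rep6 j) S Z x → ∀ h ∈ invList6, VSix (rep6 j) S Z h → x = h ∨ x = h * rep6 j := by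
  decide +kernel

end CfsgLib.SymEight40
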