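import Mathlib

/-!
Finite facts about `Perm (Fin 3) × Perm (Fin 5)` and small groups used in the three-local
recognition of the symmetric group of degree eight.
-/

set_option autoImplicit false
set_option maxRecDepth 8000

open Equiv

namespace CfsgLib.SymEight40

/-- The pairs of permutations of three and five points. -/
abbrev M : Type := Perm (Fin 3) × Perm (Fin 5)

/-- A three-cycle on three points. -/
def c3 : Perm (Fin 3) := swap 0 1 * swap 1 2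
/-- A three-cycle on five points. -/
def c5 : Perm (Fin 5) := swap 0 1 * swap 1 2
/-- The transposition disjoint from `c5`. -/
def u5 : Perm (Fin 5) := swap 3 4
/-- A transposition inverting `c5`. -/
def p5 : Perm (Fin 5) := swap 0 1

/-- The standard element `c3 ^ i * c5 ^ j`. -/
def dM (i j : Fin 3) : M := (c3 ^ i.1, c5 ^ j.1)

theorem dM_inj : ∀ i j i' j' : Fin 3, dM i j = dM i' j' → i = i' ∧ j = j' := by decide +kernel

theorem dM_mul : ∀ i j i' j' : Fin 3, dM i j * dM i' j' = dM (i + i') (j + j') := by decide +kernel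

theorem dM_zero : dM 0 0 = 1 := by decide +kernel

theorem dM_inv : ∀ i j : Fin 3, (dM i j)⁻¹ = dM (-i) (-j) := by decide +kernel

theorem three_table : ∀ σ : Perm (Fin 3), σ ^ 3 = 1 → σ = 1 ∨ σ = c3 ∨ σ = c3⁻¹ := by
  decide +kernel

theorem five_table : ∀ τ : Perm (Fin 5), τ * τ * τ = 1 →
    (swap 0 1 * swap 1 2 * swap 2 3 * swap 3 4) * τ * (swap 0 1 * swap 1 2 * swap 2 3 * swap 3 4)⁻¹
      ∈ [1, τ, τ * τ] → τ = 1 := by
  decide +kernel

/-- The normaliser of the standard Sylow subgroup inside `M` acts by signs. -/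
theorem sign_table : ∀ b : Perm (Fin 5), (∃ j : Fin 3, b * c5 * b⁻¹ = c5 ^ j.1) →
    b * c5 * b⁻¹ = c5 ∨ b * c5 * b⁻¹ = c5⁻¹ := by
  decide +kernel

theorem three_conj : ∀ a : Perm (Fin 3), a * c3 * a⁻¹ = c3 ∨ a * c3 * a⁻¹ = c3⁻¹ := by
  decide +kernel

/-- The sign changes. -/
def qM (e f : Bool) : M :=
  (if e then swap 0 1 else 1, if f then p5 else 1)

theorem qM_table : ∀ i j : Fin 3, i ≠ 0 → j ≠ 0 →
    ∃ e f : Bool, qM e f * dM i j * (qM e f)⁻¹ = dM 1 1 := by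
  decide +kernel

theorem qM_axis : ∀ i : Fin 3, i ≠ 0 → ∃ e f : Bool,
    qM e f * dM i 0 * (qM e f)⁻¹ = dM 1 0 ∧ qM e f * dM 0 i * (qM e f)⁻¹ = dM 0 1 := by
  decide +kernel

theorem qM_pair : ∀ i j : Fin 3, i ≠ 0 → j ≠ 0 → ∃ e f : Bool,
    qM e f * dM i 0 * (qM e f)⁻¹ = dM 1 0 ∧ qM e f * dM 0 j * (qM e f)⁻¹ = dM 0 1 := by
  decide +kernel

theorem qM_norm : ∀ (e f : Bool) (i j : Fin 3), ∃ i' j' : Fin 3,
    qM e f * dM i j * (qM e f)⁻¹ = dM i' j' := by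
  decide +kernel

theorem qM_sq : ∀ (e f : Bool), qM e f * qM e f = 1 := by decide +kernel

theorem qM_u : ∀ (e f : Bool), qM e f * (1, u5) = (1, u5) * qM e f := by decide +kernel

theorem type_table : ∀ b : Perm (Fin 5), b * b = 1 → b * c5 * b⁻¹ = c5⁻¹ →
    ∃ j : Fin 3, c5 ^ j.1 * b * (c5 ^ j.1)⁻¹ = p5 ∨ c5 ^ j.1 * b * (c5 ^ j.1)⁻¹ = p5 * u5 := by
  decide +kernel

theorem three_fix : ∀ a : Perm (Fin 3), a * c3 * a⁻¹ = c3 → a * a = 1 → a = 1 := by decide +kernel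

theorem three_cent : ∀ a : Perm (Fin 3), a * c3 = c3 * a → ∃ i : Fin 3, a = c3 ^ i.1 := by
  decide +kernel

theorem dihedral_sq : ∃ x : DihedralGroup 4, x * x ≠ 1 := ⟨DihedralGroup.r 1, by decide +kernel⟩

theorem dihedral_cube : ∀ x : DihedralGroup 4, x ^ 3 = 1 → x = 1 := by decide +kernel

/-- The eighteen elements centralising the standard Sylow subgroup. -/
def cM (p : Fin 3 × Fin 3 × Fin 2) : M := dM p.1 p.2.1 * (1, u5) ^ p.2.2.1

theorem cM_inj : ∀ p q, cM p = cM q → p = q := by decide +kernel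

theorem cM_comm : ∀ p, cM p * dM 1 0 = dM 1 0 * cM p ∧ cM p * dM 0 1 = dM 0 1 * cM p := by
  decide +kernel

theorem fin3_cases : ∀ i : Fin 3, i ≠ 0 → i = 1 ∨ i = 2 := by decide

theorem fin3_mul : ∀ b d : Fin 3, ¬b = 0 → d ≠ 0 → b * d ≠ 0 := by decide

theorem dM_fst_pow : ∀ i : Fin 3, dM i 0 = dM 1 0 ^ i.1 := by decide +kernel

theorem dM_snd_pow : ∀ i : Fin 3, dM 0 i = dM 0 1 ^ i.1 := by decide +kernel

theorem dM_one_split : ∀ i : Fin 3, dM 1 i = dM 1 0 * dM 0 1 ^ i.1 := by decide +kernel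

theorem dM_pow_self : ∀ b : Fin 3, ¬b = 0 → dM 0 b ^ b.1 = dM 0 1 := by decide +kernel

theorem dM_pow : ∀ b d : Fin 3, dM 0 d ^ b.1 = dM 0 (b * d) := by decide +kernel

theorem qM_snd : ∀ (e f : Bool) (j x y : Fin 3), qM e f * dM 0 j * (qM e f)⁻¹ = dM x y →
    x = 0 ∧ (j ≠ 0 → y ≠ 0) := by decide +kernel

theorem dM_snd_gen : ∀ j d : Fin 3, j ≠ 0 → ∃ m : Fin 3, dM 0 j ^ m.1 = dM 0 d := by
  decide +kernel

theorem dM_fst_pow_ne : ∀ m : Fin 3, dM 1 0 ^ m.1 ≠ dM 0 1 := by decide +kernel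

theorem u5_comm : ((1, u5) : M) * dM 1 0 = dM 1 0 * (1, u5) ∧
    ((1, u5) : M) * dM 0 1 = dM 0 1 * (1, u5) := by decide +kernel

theorem cM_invol : ∀ p, cM p * cM p = 1 → cM p ≠ 1 → cM p = (1, u5) := by decide +kernel

theorem swap_fix : ∀ (p1 p2 : Fin 3) (p3 : Fin 2),
    dM 0 p1 * dM p2 0 * (1, u5) ^ p3.1 = dM p1 0 * dM 0 p2 * (1, u5) ^ p3.1 → p1 = p2 := by
  decide +kernel

theorem dM_conj_dM : ∀ i j i' j' : Fin 3, dM i j * dM i' j' * (dM i j)⁻¹ = dM i' j' := by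
  decide +kernel

theorem u5_pow_inD : ∀ (p3 : Fin 2) (x y : Fin 3), ((1, u5) : M) ^ p3.1 = dM x y →
    ((1, u5) : M) ^ p3.1 = 1 := by decide +kernel

theorem swap_sq' : ∀ (p1 : Fin 3) (p3 : Fin 2),
    (dM p1 0)⁻¹ * (dM 0 p1)⁻¹ * (dM p1 0 * dM 0 p1 * ((1, u5) : M) ^ p3.1) = (1, u5) ^ p3.1 := by
  decide +kernel

theorem dM_fix : ∀ m : Fin 3, dM 0 m * ((1, u5) : M) * (dM 0 m)⁻¹ = (1, u5) ∧
    dM 0 m * ((swap 0 1, 1) : M) * (dM 0 m)⁻¹ = (swap 0 1, 1) := by decide +kernel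

end CfsgLib.SymEight40
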